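import Mathlib
import Cfsg.Agent.H19.Cores
import Cfsg.Prelude.Def_CaseTheorems

/-!
Groups in which every nontrivial subgroup of a cyclic subgroup of even order has the same normalizer as
that subgroup: the elementary consequences for centralizers of involutions.
-/

set_option autoImplicit false

namespace Cfsg.Agent.H33.EC

variable {G : Type*} [Group G]

/-- The normalizer condition on cyclic subgroups of even order, read on generators. -/
def NC (G : Type*) [Group G] : Prop :=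
  ∀ x : G, Even (orderOf x) → ∀ y ∈ Subgroup.zpowers x, y ≠ 1 → ∀ g : G,
    g * x * g⁻¹ ∈ Subgroup.zpowers x ↔ g * y * g⁻¹ ∈ Subgroup.zpowers y

theorem conj_zpowers_map (g x : G) :
    (Subgroup.zpowers x).map (MulAut.conj g).toMonoidHom = Subgroup.zpowers (g * x * g⁻¹) := by
  rw [MonoidHom.map_zpowers]
  simp

theorem mem_normalizer_zpowers [Finite G] (g x : G) :
    g ∈ Subgroup.normalizer (Subgroup.zpowers x : Set G) ↔ g * x * g⁻¹ ∈ Subgroup.zpowers x := by
  constructor
  · intro h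
    exact (Subgroup.mem_normalizer_iff.1 h x).1 (Subgroup.mem_zpowers x)
  · intro h
    have hle : (Subgroup.zpowers x).map (MulAut.conj g).toMonoidHom ≤ Subgroup.zpowers x := by
      rw [conj_zpowers_map]; exact Subgroup.zpowers_le.2 h
    have heq : (Subgroup.zpowers x).map (MulAut.conj g).toMonoidHom = Subgroup.zpowers x :=
      Subgroup.eq_of_le_of_card_ge hle
        (by rw [Subgroup.card_map_of_injective (MulAut.conj g).injective])
    rw [Subgroup.mem_normalizer_iff]
    intro y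
    constructor
    · intro hy
      exact hle ⟨y, hy, by simp⟩
    · intro hy
      rw [← heq] at hy
      obtain ⟨z, hz, hz'⟩ := hy
      have : z = y := by
        have h1 : g * z * g⁻¹ = g * y * g⁻¹ := by simpa using hz'
        simpa using h1
      exact this ▸ hz

/-- The hypothesis of the statement gives `NC`. -/
theorem nc_of_normalizer [Finite G] (hii : ∀ X : Subgroup G, IsCyclic ↥X → Even (Nat.card ↥X) → ∀ Y : Subgroup G, Y ≤ X → Y ≠ ⊥ →
    Subgroup.normalizer (X : Set G) = Subgroup.normalizer (Y : Set G)) : NC G := by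
  intro x hx y hy hy1 g
  rw [← mem_normalizer_zpowers, ← mem_normalizer_zpowers,
    hii (Subgroup.zpowers x) inferInstance (by rw [Nat.card_zpowers]; exact hx)
      (Subgroup.zpowers y) (Subgroup.zpowers_le.2 hy) (by simpa using hy1)]

theorem mem_zpowers_coe {M : Subgroup G} (a b : M) :
    (a : G) ∈ Subgroup.zpowers (b : G) ↔ a ∈ Subgroup.zpowers b := by
  simp only [Subgroup.mem_zpowers_iff]
  refine exists_congr fun k => ?_
  rw [← SubgroupClass.coe_zpow, Subtype.coe_inj]

/-- The condition passes to subgroups. -/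
theorem NC.subgroup (h : NC G) (M : Subgroup G) : NC ↥M := by
  intro x hx y hy hy1 g
  have := h (x : G) (by rwa [Subgroup.orderOf_coe]) (y : G) ((mem_zpowers_coe y x).2 hy)
    (fun e => hy1 (Subtype.ext e)) (g : G)
  rwa [← mem_zpowers_coe, ← mem_zpowers_coe]

theorem orderOf_two_iff {t : G} : orderOf t = 2 ↔ t * t = 1 ∧ t ≠ 1 := by
  rw [orderOf_eq_prime_iff, pow_two]

theorem conj_involution_iff {t : G} (ht : orderOf t = 2) (g : G) :
    g * t * g⁻¹ ∈ Subgroup.zpowers t ↔ Commute g t := by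
  constructor
  · intro h
    obtain ⟨k, hk⟩ := Subgroup.mem_zpowers_iff.1 h
    rcases Int.even_or_odd' k with ⟨j, rfl | rfl⟩
    · exfalso
      have h2 : t ^ (2 : ℤ) = 1 := by
        rw [zpow_two]; exact (orderOf_two_iff.1 ht).1
      rw [zpow_mul, h2, one_zpow] at hk
      exact (orderOf_two_iff.1 ht).2 (conj_eq_one_iff.1 hk.symm)
    · have h2 : t ^ (2 : ℤ) = 1 := by
        rw [zpow_two]; exact (orderOf_two_iff.1 ht).1
      rw [zpow_add, zpow_mul, h2, one_zpow, one_mul, zpow_one] at hk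
      exact mul_inv_eq_iff_eq_mul.1 hk.symm
  · intro h
    rw [h.eq, mul_inv_cancel_right]
    exact Subgroup.mem_zpowers t

theorem exists_involution_pow [Finite G] {x : G} (hx : Even (orderOf x)) :
    orderOf (x ^ (orderOf x / 2)) = 2 ∧ x ^ (orderOf x / 2) ∈ Subgroup.zpowers x := by
  obtain ⟨k, hk⟩ := hx
  have hk2 : orderOf x / 2 = k := by omega
  have hpos := orderOf_pos x
  refine ⟨?_, pow_mem (Subgroup.mem_zpowers x) _⟩
  rw [hk2, orderOf_pow_of_dvd (by omega) ⟨2, by omega⟩]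
  exact Nat.div_eq_of_eq_mul_right (by omega) (by omega)

theorem even_orderOf_of_involution_mem [Finite G] {x t : G} (ht : orderOf t = 2)
    (htx : t ∈ Subgroup.zpowers x) : Even (orderOf x) := by
  rw [even_iff_two_dvd, ← ht]
  exact orderOf_dvd_of_mem_zpowers htx

/-- Elements fixing the involution of a cyclic subgroup normalize it, and conversely. -/
theorem NC.conj_mem_iff [Finite G] (h : NC G) {x t : G} (ht : orderOf t = 2)
    (htx : t ∈ Subgroup.zpowers x) (g : G) :
    g * x * g⁻¹ ∈ Subgroup.zpowers x ↔ Commute g t := by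
  rw [h x (even_orderOf_of_involution_mem ht htx) t htx (orderOf_two_iff.1 ht).2 g,
    conj_involution_iff ht]

/-- An element of odd order centralized by `t` has normalizer `C(t)`. -/
theorem NC.odd_iff [Finite G] (h : NC G) {x t : G} (ht : orderOf t = 2) (hxt : Commute x t)
    (hodd : Odd (orderOf x)) (hx1 : x ≠ 1) (g : G) :
    g * x * g⁻¹ ∈ Subgroup.zpowers x ↔ Commute g t := by
  have h2 : t * t = 1 := (orderOf_two_iff.1 ht).1
  have htm : t ∈ Subgroup.zpowers (x * t) := by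
    have : (x * t) ^ orderOf x = t := by
      rw [hxt.mul_pow, pow_orderOf_eq_one, one_mul]
      obtain ⟨k, hk⟩ := hodd
      rw [hk, pow_succ, pow_mul, pow_two, h2, one_pow, one_mul]
    have hp := pow_mem (Subgroup.mem_zpowers (x * t)) (orderOf x)
    rwa [this] at hp
  have hxm : x ∈ Subgroup.zpowers (x * t) := by
    have := mul_mem (Subgroup.mem_zpowers (x * t)) htm
    rwa [mul_assoc, h2, mul_one] at this
  rw [← h (x * t) (even_orderOf_of_involution_mem ht htm) x hxm hx1 g, h.conj_mem_iff ht htm]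

theorem NC.centralizer_odd_le [Finite G] (h : NC G) {x t : G} (ht : orderOf t = 2) (hxt : Commute x t)
    (hodd : Odd (orderOf x)) (hx1 : x ≠ 1) {g : G} (hg : Commute g x) : Commute g t := by
  refine (h.odd_iff ht hxt hodd hx1 g).1 ?_
  rw [hg.eq, mul_inv_cancel_right]
  exact Subgroup.mem_zpowers x

/-- The odd core of the centralizer of `t`, as a subgroup of `G`. -/
def oddD (t : G) : Subgroup G :=
  (Cfsg.oddCore ↥(Subgroup.centralizer ({t} : Set G))).map (Subgroup.centralizer ({t} : Set G)).subtype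

theorem mem_cent {g t : G} : g ∈ Subgroup.centralizer ({t} : Set G) ↔ Commute g t :=
  Subgroup.mem_centralizer_singleton_iff

theorem oddD_le (t : G) : oddD t ≤ Subgroup.centralizer ({t} : Set G) :=
  Subgroup.map_subtype_le _

theorem odd_card_oddD [Finite G] (t : G) : Odd (Nat.card ↥(oddD t)) := by
  rw [oddD, Subgroup.card_map_of_injective (Subgroup.subtype_injective _)]
  exact Nat.coprime_two_right.1 (H19.pPrimeCore_coprime 2)

theorem oddD_conj {t g d : G} (hg : Commute g t) (hd : d ∈ oddD t) : g * d * g⁻¹ ∈ oddD t := by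
  obtain ⟨d', hd', rfl⟩ := hd
  exact ⟨⟨g, mem_cent.2 hg⟩ * d' * ⟨g, mem_cent.2 hg⟩⁻¹,
    (H19.pPrimeCore_normal 2 _).conj_mem d' hd' _, rfl⟩

/-- The odd core of `C(t)` consists of all its elements of odd order. -/
theorem NC.mem_oddD [Finite G] (h : NC G) {t : G} (ht : orderOf t = 2) {x : G} :
    x ∈ oddD t ↔ Commute x t ∧ Odd (orderOf x) := by
  constructor
  · intro hx
    refine ⟨mem_cent.1 (oddD_le t hx), ?_⟩
    exact (odd_card_oddD t).of_dvd_nat (Subgroup.orderOf_dvd_natCard (oddD t) hx)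
  · rintro ⟨hxt, hodd⟩
    rcases eq_or_ne x 1 with rfl | hx1
    · exact one_mem _
    let x' : Subgroup.centralizer ({t} : Set G) := ⟨x, mem_cent.2 hxt⟩
    have hn : (Subgroup.zpowers x').Normal := by
      constructor
      intro y hy g
      obtain ⟨k, rfl⟩ := Subgroup.mem_zpowers_iff.1 hy
      have hg := (h.odd_iff ht hxt hodd hx1 (g : G)).2 (mem_cent.1 g.2)
      have : g * x' * g⁻¹ ∈ Subgroup.zpowers x' := (mem_zpowers_coe _ _).1 hg
      rw [← conj_zpow]
      exact Subgroup.zpow_mem _ this k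
    have hle : Subgroup.zpowers x' ≤ Cfsg.oddCore _ :=
      H19.le_pPrimeCore hn (by
        rw [Nat.card_zpowers, ← Subgroup.orderOf_coe]
        exact Nat.coprime_two_right.2 hodd)
    exact ⟨x', hle (Subgroup.mem_zpowers x'), rfl⟩

/-- Two involutions with a common nontrivial element in their odd cores have the same centralizer. -/
theorem NC.commute_iff_of_common [Finite G] (h : NC G) {t u x : G} (ht : orderOf t = 2)
    (hu : orderOf u = 2) (hxt : x ∈ oddD t) (hxu : x ∈ oddD u) (hx1 : x ≠ 1) (g : G) :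
    Commute g t ↔ Commute g u := by
  obtain ⟨h1, hodd⟩ := (h.mem_oddD ht).1 hxt
  obtain ⟨h2, -⟩ := (h.mem_oddD hu).1 hxu
  rw [← h.odd_iff ht h1 hodd hx1 g, ← h.odd_iff hu h2 hodd hx1 g]

theorem eq_one_of_two_odd [Finite G] {S : Subgroup G} (hS : IsPGroup 2 ↥S) {D : Subgroup G}
    (hD : Odd (Nat.card ↥D)) {x : G} (hx : x ∈ S) (hx' : x ∈ D) : x = 1 := by
  have hle := H19.inf_eq_bot_of_isPGroup_coprime hS (Nat.coprime_two_right.2 hD)
  have : x ∈ S ⊓ D := ⟨hx, hx'⟩
  rwa [hle, Subgroup.mem_bot] at this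

/-- `C(t) = O(C(t)) S` when the Sylow 2-subgroup `S` centralizes `t`. -/
theorem NC.exists_mul [Finite G] (h : NC G) (S : Sylow 2 G) {t : G} (ht : orderOf t = 2)
    (hS : ∀ s ∈ (S : Subgroup G), Commute s t) {g : G} (hg : Commute g t) :
    ∃ d ∈ oddD t, ∃ s ∈ (S : Subgroup G), g = d * s := by
  have : Fact (Nat.Prime 2) := ⟨Nat.prime_two⟩
  set C := Subgroup.centralizer ({t} : Set G) with hC
  have : (Cfsg.oddCore ↥C).Normal := H19.pPrimeCore_normal 2 _
  have hSC : (S : Subgroup G) ≤ C := fun s hs => mem_cent.2 (hS s hs)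
  let S' : Sylow 2 ↥C := S.subtype hSC
  have hq : IsPGroup 2 (↥C ⧸ Cfsg.oddCore ↥C) := by
    intro q
    obtain ⟨y, rfl⟩ := QuotientGroup.mk_surjective q
    obtain ⟨a, m, hm, hn⟩ := Nat.exists_eq_two_pow_mul_odd (orderOf_pos y).ne'
    refine ⟨a, ?_⟩
    rw [← QuotientGroup.mk_pow, QuotientGroup.eq_one_iff]
    have hdvd : orderOf (y ^ 2 ^ a) ∣ m := by
      apply orderOf_dvd_of_pow_eq_one
      rw [← pow_mul, ← hn, pow_orderOf_eq_one]
    have hmem := (h.mem_oddD ht (x := ((y ^ 2 ^ a : ↥C) : G))).2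
      ⟨mem_cent.1 (y ^ 2 ^ a).2, by rw [Subgroup.orderOf_coe]; exact hm.of_dvd_nat hdvd⟩
    obtain ⟨z, hz, hz'⟩ := hmem
    rwa [Subtype.ext hz'] at hz
  have htop : Cfsg.oddCore ↥C ⊔ (S' : Subgroup ↥C) = ⊤ := by
    obtain ⟨k, hk⟩ := IsPGroup.iff_card.1 hq
    rw [← Subgroup.index_eq_one]
    have h1 : (Cfsg.oddCore ↥C ⊔ (S' : Subgroup ↥C)).index ∣ 2 ^ k := by
      rw [← hk, ← Subgroup.index_eq_card]
      exact Subgroup.index_dvd_of_le le_sup_left
    have h2 : (Cfsg.oddCore ↥C ⊔ (S' : Subgroup ↥C)).index ∣ (S' : Subgroup ↥C).index :=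
      Subgroup.index_dvd_of_le le_sup_right
    exact Nat.eq_one_of_dvd_coprimes
      (Nat.Coprime.pow_left k ((Nat.prime_two.coprime_iff_not_dvd).2 S'.not_dvd_index)) h1 h2
  have hmem : (⟨g, mem_cent.2 hg⟩ : ↥C) ∈ Cfsg.oddCore ↥C ⊔ (S' : Subgroup ↥C) := by
    rw [htop]; exact Subgroup.mem_top _
  obtain ⟨d, hd, s, hs, e⟩ := Subgroup.mem_sup_of_normal_left.1 hmem
  exact ⟨(d : G), ⟨d, hd, rfl⟩, (s : G), hs, by rw [← Subgroup.coe_mul, e]⟩

/-- Fusion in `C(t)` of elements of `S` is realized in `S`. -/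
theorem NC.fusion_cent [Finite G] (h : NC G) (S : Sylow 2 G) {t : G} (ht : orderOf t = 2)
    (hS : ∀ s ∈ (S : Subgroup G), Commute s t) {g q : G} (hg : Commute g t)
    (hq : q ∈ (S : Subgroup G)) (hgq : g * q * g⁻¹ ∈ (S : Subgroup G)) :
    ∃ s ∈ (S : Subgroup G), g * q * g⁻¹ = s * q * s⁻¹ := by
  obtain ⟨d, hd, s, hs, rfl⟩ := h.exists_mul S ht hS hg
  refine ⟨s, hs, ?_⟩
  set q' := s * q * s⁻¹ with hq'
  have hq'S : q' ∈ (S : Subgroup G) := mul_mem (mul_mem hs hq) (inv_mem hs)
  have e : d * s * q * (d * s)⁻¹ = d * q' * d⁻¹ := by rw [hq']; group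
  rw [e] at hgq ⊢
  have h1 : d * q' * d⁻¹ * q'⁻¹ ∈ (S : Subgroup G) := mul_mem hgq (inv_mem hq'S)
  have h2 : d * q' * d⁻¹ * q'⁻¹ ∈ oddD t := by
    rw [show d * q' * d⁻¹ * q'⁻¹ = d * (q' * d⁻¹ * q'⁻¹) by group]
    exact mul_mem hd (oddD_conj (hS q' hq'S) (inv_mem hd))
  exact mul_inv_eq_one.1 (eq_one_of_two_odd S.2 (odd_card_oddD t) h1 h2)

end Cfsg.Agent.H33.EC
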