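import Mathlib
import Cfsg.Agent.H33.EC.Basic
import Cfsg.Agent.H22.Fusion

/-!
The Sylow 2-subgroup of a group with the normalizer condition: involutions that are squares in it are
central, and a noncentral conjugate of a central involution forces it to be dihedral.
-/

set_option autoImplicit false

namespace Cfsg.Agent.H33.EC

variable {G : Type*} [Group G] [Finite G]

/-- A central element of the Sylow subgroup. -/
def Cen (S : Sylow 2 G) (t : G) : Prop := t ∈ (S : Subgroup G) ∧ ∀ s ∈ (S : Subgroup G), Commute s t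

theorem exists_two_pow (S : Sylow 2 G) {v : G} (hv : v ∈ (S : Subgroup G)) :
    ∃ m : ℕ, orderOf v = 2 ^ m := by
  have : Fact (Nat.Prime 2) := ⟨Nat.prime_two⟩
  obtain ⟨m, hm⟩ := (IsPGroup.iff_orderOf.1 S.2) ⟨v, hv⟩
  exact ⟨m, by rwa [Subgroup.orderOf_mk] at hm⟩

theorem exists_two_pow_four (S : Sylow 2 G) {v : G} (hv : v ∈ (S : Subgroup G)) (hv2 : v * v ≠ 1) :
    ∃ m : ℕ, orderOf v = 2 ^ (m + 2) := by
  obtain ⟨m, hm⟩ := exists_two_pow S hv
  rcases m with _ | _ | m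
  · rw [pow_zero, orderOf_eq_one_iff] at hm
    simp [hm] at hv2
  · exact absurd (orderOf_two_iff.1 (by simpa using hm)).1 hv2
  · exact ⟨m, hm⟩

theorem even_orderOf_of_ne_one (S : Sylow 2 G) {v : G} (hv : v ∈ (S : Subgroup G)) (hv1 : v ≠ 1) :
    Even (orderOf v) := by
  obtain ⟨m, hm⟩ := exists_two_pow S hv
  rcases m with _ | m
  · exact absurd (orderOf_eq_one_iff.1 (by simpa using hm)) hv1
  · rw [hm, pow_succ]; exact even_two.mul_left _

theorem eq_half_pow {x t : G} (ht : orderOf t = 2) (htx : t ∈ Subgroup.zpowers x) :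
    t = x ^ (orderOf x / 2) := by
  obtain ⟨j, hj, rfl⟩ : ∃ j, j < orderOf x ∧ x ^ j = t := by
    have : t ∈ Submonoid.powers x := mem_powers_iff_mem_zpowers.2 htx
    obtain ⟨j, rfl⟩ := this
    exact ⟨j % orderOf x, Nat.mod_lt _ (orderOf_pos x), pow_mod_orderOf x j⟩
  have h2 := (orderOf_two_iff.1 ht).1
  have h1 := (orderOf_two_iff.1 ht).2
  rw [← pow_add] at h2
  obtain ⟨c, hc⟩ := orderOf_dvd_of_pow_eq_one h2
  have hj0 : j ≠ 0 := fun e => h1 (by rw [e, pow_zero])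
  have hc1 : c = 1 := by
    rcases c with _ | _ | c
    · omega
    · rfl
    · nlinarith
  subst hc1
  congr 1
  omega

/-- The element of order four below an element of order at least four. -/
theorem exists_four (S : Sylow 2 G) {v t : G} (hv : v ∈ (S : Subgroup G)) (hv2 : v * v ≠ 1)
    (ht : orderOf t = 2) (htv : t ∈ Subgroup.zpowers v) :
    ∃ y ∈ Subgroup.zpowers v, y * y = t := by
  obtain ⟨m, hm⟩ := exists_two_pow_four S hv hv2
  refine ⟨v ^ (2 ^ m), pow_mem (Subgroup.mem_zpowers v) _, ?_⟩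
  rw [eq_half_pow ht htv, hm, ← pow_add]
  congr 1
  rw [pow_succ, pow_succ]; omega

theorem orderOf_four {y t : G} (ht : orderOf t = 2) (hy : y * y = t) : orderOf y = 4 := by
  have : Fact (Nat.Prime 2) := ⟨Nat.prime_two⟩
  obtain ⟨h2, h1⟩ := orderOf_two_iff.1 ht
  have := orderOf_eq_prime_pow (p := 2) (n := 1) (x := y) (by rw [pow_one, pow_two, hy]; exact h1)
    (by rw [show (2 : ℕ) ^ (1 + 1) = 2 + 2 from rfl, pow_add, pow_two, hy, h2])
  simpa using this

theorem mem_zpowers_four {y t : G} (hy : y * y = t) : t ∈ Subgroup.zpowers y :=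
  hy ▸ mul_mem (Subgroup.mem_zpowers y) (Subgroup.mem_zpowers y)

theorem eq_or_eq_inv_of_four {y z t : G} (ht : orderOf t = 2) (hy : y * y = t)
    (hz : z ∈ Subgroup.zpowers y) (hzz : z * z = t) : z = y ∨ z = y⁻¹ := by
  have h4 := orderOf_four ht hy
  obtain ⟨h2, h1⟩ := orderOf_two_iff.1 ht
  obtain ⟨j, rfl⟩ : ∃ j, y ^ j = z := mem_powers_iff_mem_zpowers.2 hz
  rw [← pow_mod_orderOf, h4] at hzz ⊢
  have hj : j % 4 < 4 := Nat.mod_lt _ (by norm_num)
  interval_cases hjj : j % 4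
  · simp only [pow_zero, mul_one] at hzz
    exact absurd hzz.symm h1
  · exact Or.inl (pow_one y)
  · rw [pow_two, hy, h2] at hzz
    exact absurd hzz.symm h1
  · refine Or.inr (eq_inv_of_mul_eq_one_left ?_)
    rw [← pow_succ, show (3 : ℕ) + 1 = orderOf y by omega, pow_orderOf_eq_one]

theorem NC.four_conj (h : NC G) {y t g : G} (ht : orderOf t = 2) (hy : y * y = t) (hg : Commute g t) :
    g * y * g⁻¹ = y ∨ g * y * g⁻¹ = y⁻¹ := by
  refine eq_or_eq_inv_of_four ht hy ((h.conj_mem_iff ht (mem_zpowers_four hy) g).2 hg) ?_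
  rw [show g * y * g⁻¹ * (g * y * g⁻¹) = g * (y * y) * g⁻¹ by group, hy, hg.eq, mul_inv_cancel_right]

theorem NC.no_moved_square_aux (h : NC G) (S : Sylow 2 G) {Y : Subgroup G}
    (hYS : Y ≤ (S : Subgroup G)) {a a' s t t' : G}
    (hat : a * a = t) (ha't : a' * a' = t') (htt : t ≠ t') (ha : a ∈ Y) (ha' : a' ∈ Y)
    (hs : s ∈ (S : Subgroup G)) (hsY : s ∉ Y) (hssY : s * s ∈ Y) (h1 : s * a = a' * s)
    (h2 : s * a' = a * s) (hc : Commute a a') (hd : a * a' * (s * s) ≠ 1) : False := by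
  have hass : Commute a (s * s) := by
    show a * (s * s) = s * s * a
    rw [← mul_assoc, ← h2, mul_assoc, mul_assoc, h1]
  set c := a * s with hcdef
  have hsq : c * c = a * a' * (s * s) := by
    rw [hcdef, show a * s * (a * s) = a * (s * a) * s by group, h1]; group
  have hcS : c ∈ (S : Subgroup G) := mul_mem (hYS ha) hs
  have hcc : c * c ∈ (S : Subgroup G) := mul_mem hcS hcS
  obtain ⟨hi, hic⟩ := exists_involution_pow (even_orderOf_of_ne_one S hcc (hsq ▸ hd))
  set i := (c * c) ^ (orderOf (c * c) / 2) with hidef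
  have hac2 : Commute a (c * c) := by
    rw [hsq]
    exact ((Commute.refl a).mul_right hc).mul_right hass
  have hai : Commute a i := hac2.pow_right _
  have hicc : i ∈ Subgroup.zpowers c :=
    Subgroup.zpowers_le.2 (mul_mem (Subgroup.mem_zpowers c) (Subgroup.mem_zpowers c)) hic
  obtain ⟨n, hn⟩ := Subgroup.mem_zpowers_iff.1 ((h.conj_mem_iff hi hicc a).2 hai)
  have hdY : c * c ∈ Y := by rw [hsq]; exact mul_mem (mul_mem ha ha') hssY
  rcases Int.even_or_odd' n with ⟨j, rfl | rfl⟩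
  · rw [zpow_mul, zpow_two] at hn
    have h3 : a * c * a⁻¹ ∈ Y := hn ▸ zpow_mem hdY j
    have h4 : c ∈ Y := by
      have := mul_mem (mul_mem (inv_mem ha) h3) ha
      simpa [mul_assoc] using this
    exact hsY (by simpa [hcdef] using mul_mem (inv_mem ha) h4)
  · rw [zpow_add, zpow_mul, zpow_two, zpow_one] at hn
    have hsd : Commute s (c * c) := by
      have e : s = a⁻¹ * c := by rw [hcdef]; group
      rw [e]
      exact hac2.inv_left.mul_left ((Commute.refl c).mul_right (Commute.refl c))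
    have h5 : s * a⁻¹ * s⁻¹ = a'⁻¹ := by
      rw [mul_inv_eq_iff_eq_mul]
      calc s * a⁻¹ = a'⁻¹ * (a' * s) * a⁻¹ := by group
        _ = a'⁻¹ * (s * a) * a⁻¹ := by rw [h1]
        _ = a'⁻¹ * s := by group
    have h6 : a * a * a'⁻¹ = (c * c) ^ j * a := by
      have e2 : a * c * a⁻¹ = a * a * a'⁻¹ * s := by
        rw [hcdef, show a * (a * s) * a⁻¹ = a * a * (s * a⁻¹ * s⁻¹) * s by group, h5]
      rw [e2, hcdef, ← mul_assoc] at hn
      exact (mul_right_cancel hn).symm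
    have h7 : (c * c) ^ j = a * a'⁻¹ := by
      rw [eq_mul_inv_iff_mul_eq]
      have : (c * c) ^ j = a * a * a'⁻¹ * a⁻¹ := eq_mul_inv_of_mul_eq h6.symm
      rw [this, mul_assoc _ a⁻¹ a', hc.inv_left.eq]
      group
    have h8 : s * (a * a'⁻¹) * s⁻¹ = a * a'⁻¹ := by
      rw [← h7, (hsd.zpow_right j).eq, mul_inv_cancel_right]
    have h9 : s * (a * a'⁻¹) * s⁻¹ = a' * a⁻¹ := by
      have e1 : s * a * s⁻¹ = a' := by rw [h1, mul_inv_cancel_right]
      have e3 : s * a' * s⁻¹ = a := by rw [h2, mul_inv_cancel_right]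
      rw [show s * (a * a'⁻¹) * s⁻¹ = (s * a * s⁻¹) * (s * a' * s⁻¹)⁻¹ by group, e1, e3]
    rw [h8] at h9
    refine htt ?_
    rw [← hat, ← ha't]
    calc a * a = a * (a * a'⁻¹) * a' := by group
      _ = a * (a' * a⁻¹) * a' := by rw [h9]
      _ = (a * a') * a⁻¹ * a' := by group
      _ = (a' * a) * a⁻¹ * a' := by rw [hc.eq]
      _ = a' * a' := by group

/-- An involution that is a power of an element of order at least four of `S` is central in `S`. -/
theorem NC.sq_central (h : NC G) (S : Sylow 2 G) {v t : G} (hv : v ∈ (S : Subgroup G)) (hv2 : v * v ≠ 1)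
    (ht : orderOf t = 2) (htv : t ∈ Subgroup.zpowers v) : Cen S t := by
  have : Fact (Nat.Prime 2) := ⟨Nat.prime_two⟩
  have htS : t ∈ (S : Subgroup G) := Subgroup.zpowers_le.2 hv htv
  refine ⟨htS, ?_⟩
  by_contra hne
  push Not at hne
  set Y : Subgroup G := (S : Subgroup G) ⊓ Subgroup.centralizer ({t} : Set G) with hY
  have hYmem : ∀ x, x ∈ Y ↔ x ∈ (S : Subgroup G) ∧ Commute x t := fun x => by
    rw [hY, Subgroup.mem_inf, mem_cent]
  have hlt : Y.subgroupOf (S : Subgroup G) < ⊤ := by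
    rw [lt_top_iff_ne_top, Ne, Subgroup.subgroupOf_eq_top]
    intro hle
    obtain ⟨s, hs, hst⟩ := hne
    exact hst ((hYmem s).1 (hle hs)).2
  haveI : Group.IsNilpotent (S : Subgroup G) := IsPGroup.isNilpotent S.2
  obtain ⟨s₀, hs₀N, hs₀Y⟩ := SetLike.exists_of_lt
    (Group.normalizerCondition_of_isNilpotent (Y.subgroupOf (S : Subgroup G)) hlt)
  have hex : ∃ k, ((s₀ : G)) ^ (2 ^ k) ∈ Y := by
    obtain ⟨m, hm⟩ := exists_two_pow S s₀.2
    exact ⟨m, by rw [← hm, pow_orderOf_eq_one]; exact one_mem _⟩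
  classical
  have hk := Nat.find_spec hex
  obtain ⟨k, hk'⟩ : ∃ k, Nat.find hex = k + 1 := by
    refine Nat.exists_eq_succ_of_ne_zero fun e => ?_
    rw [e, pow_zero, pow_one] at hk
    exact hs₀Y (Subgroup.mem_subgroupOf.2 hk)
  rw [hk', pow_succ, pow_mul, pow_two] at hk
  set s := (s₀ : G) ^ (2 ^ k) with hsdef
  have hsS : s ∈ (S : Subgroup G) := pow_mem s₀.2 _
  have hsY : s ∉ Y := fun e => Nat.find_min hex (by omega : k < Nat.find hex) e
  have hnorm : ∀ x : G, x ∈ Y → s * x * s⁻¹ ∈ Y ∧ s⁻¹ * x * s ∈ Y := by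
    intro x hx
    have hxS := ((hYmem x).1 hx).1
    have h1 := pow_mem hs₀N (2 ^ k)
    have e1 := (Subgroup.mem_normalizer_iff.1 h1 ⟨x, hxS⟩).1 (Subgroup.mem_subgroupOf.2 hx)
    have e2 := (Subgroup.mem_normalizer_iff.1 (inv_mem h1) ⟨x, hxS⟩).1 (Subgroup.mem_subgroupOf.2 hx)
    exact ⟨by simpa [Subgroup.mem_subgroupOf, hsdef] using e1,
      by simpa [Subgroup.mem_subgroupOf, hsdef] using e2⟩
  obtain ⟨y, hyv, hy⟩ := exists_four S hv hv2 ht htv
  have hyt : Commute y t := hy ▸ (Commute.refl y).mul_right (Commute.refl y)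
  have hyY : y ∈ Y := (hYmem y).2 ⟨Subgroup.zpowers_le.2 hv hyv, hyt⟩
  set y' := s * y * s⁻¹ with hy'def
  set t' := s * t * s⁻¹ with ht'def
  have htt : t ≠ t' := fun e => hsY ((hYmem s).2 ⟨hsS, mul_inv_eq_iff_eq_mul.1 e.symm⟩)
  have hy' : y' * y' = t' := by rw [hy'def, ht'def, ← hy]; group
  have ht' : orderOf t' = 2 := by rw [ht'def]; simpa using (MulAut.conj s).orderOf_eq t |>.trans ht
  have hy'Y := (hnorm y hyY).1
  have hy't : Commute y' t := ((hYmem _).1 hy'Y).2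
  have hyt' : Commute y t' := by
    have h1 : (s⁻¹ * y * s) * t = t * (s⁻¹ * y * s) := ((hYmem _).1 (hnorm y hyY).2).2.eq
    show y * t' = t' * y
    calc y * t' = s * ((s⁻¹ * y * s) * t) * s⁻¹ := by rw [ht'def]; group
      _ = s * (t * (s⁻¹ * y * s)) * s⁻¹ := by rw [h1]
      _ = t' * y := by rw [ht'def]; group
  have hc : Commute y y' := by
    rcases h.four_conj ht hy hy't with e | e
    · exact (show Commute y' y from mul_inv_eq_iff_eq_mul.1 e).symm
    · exfalso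
      rcases h.four_conj ht' hy' hyt' with e' | e'
      · have e'' : Commute y y' := mul_inv_eq_iff_eq_mul.1 e'
        rw [e''.symm.eq, mul_inv_cancel_right] at e
        exact (orderOf_two_iff.1 ht).2 (by rw [← hy]; nth_rewrite 2 [e]; exact mul_inv_cancel y)
      · have hinv : y' * y⁻¹ * y'⁻¹ = y := by
          rw [show y' * y⁻¹ * y'⁻¹ = (y' * y * y'⁻¹)⁻¹ by group, e, inv_inv]
        refine htt ?_
        calc t = y * y := hy.symm
          _ = y * (y' * y⁻¹ * y'⁻¹) := by rw [hinv]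
          _ = y * y' * y⁻¹ * y'⁻¹ := by group
          _ = y'⁻¹ * y'⁻¹ := by rw [e']
          _ = (y' * y')⁻¹ := by group
          _ = t' := by
            rw [hy']; exact inv_eq_of_mul_eq_one_right (orderOf_two_iff.1 ht').1
  have hsst : Commute (s * s) t := ((hYmem _).1 hk).2
  have htct : Commute t t' := by
    rw [← hy, ← hy']
    exact (hc.mul_right hc).mul_left (hc.mul_right hc)
  have ht2 : orderOf (t * t') = 2 := by
    refine orderOf_two_iff.2 ⟨?_, fun e => htt ?_⟩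
    · rw [show t * t' * (t * t') = t * (t' * t) * t' by group, ← htct.eq,
        show t * (t * t') * t' = (t * t) * (t' * t') by group, (orderOf_two_iff.1 ht).1,
        (orderOf_two_iff.1 ht').1, mul_one]
    · rw [eq_inv_of_mul_eq_one_left e]
      exact inv_eq_of_mul_eq_one_right (orderOf_two_iff.1 ht').1
  have hw : y * y' * (y * y') = t * t' := by
    rw [show y * y' * (y * y') = y * (y' * y) * y' by group, ← hc.eq,
      show y * (y * y') * y' = (y * y) * (y' * y') by group, hy, hy']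
  have hst' : s * t' * s⁻¹ = t := by
    rw [ht'def, show s * (s * t * s⁻¹) * s⁻¹ = (s * s) * t * (s * s)⁻¹ by group, hsst.eq,
      mul_inv_cancel_right]
  have hs2 : Commute s (t * t') := by
    refine mul_inv_eq_iff_eq_mul.1 ?_
    rw [show s * (t * t') * s⁻¹ = (s * t * s⁻¹) * (s * t' * s⁻¹) by group, ← ht'def, hst', ← htct.eq]
  have h2 : s * y' = y * s := by
    rw [← mul_inv_eq_iff_eq_mul]
    have e1 : s * y' * s⁻¹ = (s * s) * y * (s * s)⁻¹ := by rw [hy'def]; group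
    rcases h.four_conj ht hy hsst with e | e
    · rw [e1, e]
    · exfalso
      have e2 : s * (y * y') * s⁻¹ = y' * y⁻¹ := by
        rw [show s * (y * y') * s⁻¹ = (s * y * s⁻¹) * (s * y' * s⁻¹) by group, ← hy'def, e1, e]
      rcases h.four_conj ht2 hw hs2 with e3 | e3 <;> rw [e2] at e3
      · rw [hc.eq, mul_left_cancel_iff] at e3
        exact (orderOf_two_iff.1 ht).2 (by rw [← hy]; nth_rewrite 1 [← e3]; exact inv_mul_cancel y)
      · rw [mul_inv_rev, mul_left_inj] at e3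
        exact (orderOf_two_iff.1 ht').2 (by rw [← hy']; nth_rewrite 1 [e3]; exact inv_mul_cancel y')
  have h1 : s * y = y' * s := by rw [hy'def, inv_mul_cancel_right]
  by_cases hd : y * y' * (s * s) = 1
  · have hyi : y⁻¹ * y⁻¹ = t := by
      rw [← mul_inv_rev, hy]; exact inv_eq_of_mul_eq_one_right (orderOf_two_iff.1 ht).1
    have hy'i : y'⁻¹ * y'⁻¹ = t' := by
      rw [← mul_inv_rev, hy']; exact inv_eq_of_mul_eq_one_right (orderOf_two_iff.1 ht').1
    refine h.no_moved_square_aux S inf_le_left hyi hy'i htt (inv_mem hyY) (inv_mem hy'Y) hsS hsY hk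
      ?_ ?_ hc.inv_inv ?_
    · rw [eq_inv_mul_iff_mul_eq, ← mul_assoc, ← h1]; group
    · rw [eq_inv_mul_iff_mul_eq, ← mul_assoc, ← h2]; group
    · intro hd'
      have hss : s * s = y' * y := by
        calc s * s = y' * y * (y⁻¹ * y'⁻¹ * (s * s)) := by group
          _ = y' * y := by rw [hd', mul_one]
      rw [hss, ← hc.eq, hw] at hd
      exact (orderOf_two_iff.1 ht2).2 hd
  · exact h.no_moved_square_aux S inf_le_left hy hy' htt hyY hy'Y hsS hsY hk h1 h2 hc hd

theorem cen_conj (S : Sylow 2 G) {n q : G} (hn : n ∈ Subgroup.normalizer ((S : Subgroup G) : Set G))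
    (hq : Cen S q) : Cen S (n * q * n⁻¹) := by
  refine ⟨(Subgroup.mem_normalizer_iff.1 hn q).1 hq.1, fun s hs => ?_⟩
  have h1 : n⁻¹ * s * n ∈ (S : Subgroup G) := (Subgroup.mem_normalizer_iff''.1 hn s).1 hs
  show s * (n * q * n⁻¹) = n * q * n⁻¹ * s
  calc s * (n * q * n⁻¹) = n * ((n⁻¹ * s * n) * q) * n⁻¹ := by group
    _ = n * (q * (n⁻¹ * s * n)) * n⁻¹ := by rw [(hq.2 _ h1).eq]
    _ = n * q * n⁻¹ * s := by group

theorem cen_mem_centralizer (S : Sylow 2 G) {q : G} (hq : Cen S q) :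
    q ∈ Subgroup.centralizer ((S : Subgroup G) : Set G) :=
  Subgroup.mem_centralizer_iff.2 fun z hz => (hq.2 z hz).eq

/-- An element carrying a central involution to a central element acts on `S` like a normalizing one. -/
theorem NC.fusion_of_central (h : NC G) (S : Sylow 2 G) {e g q : G} (he : orderOf e = 2) (hcen : Cen S e)
    (hcen' : Cen S (g * e * g⁻¹)) (hq : q ∈ (S : Subgroup G)) (hgq : g * q * g⁻¹ ∈ (S : Subgroup G)) :
    ∃ n ∈ Subgroup.normalizer ((S : Subgroup G) : Set G), g * q * g⁻¹ = n * q * n⁻¹ := by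
  have : Fact (Nat.Prime 2) := ⟨Nat.prime_two⟩
  obtain ⟨m, hm, hme⟩ := H22.burnside_fusion_central S (cen_mem_centralizer S hcen) g
    (cen_mem_centralizer S hcen')
  have hc : Commute (m⁻¹ * g) e := by
    refine mul_inv_eq_iff_eq_mul.1 ?_
    rw [show m⁻¹ * g * e * (m⁻¹ * g)⁻¹ = m⁻¹ * (g * e * g⁻¹) * m by group, ← hme]
    group
  have h1 : (m⁻¹ * g) * q * (m⁻¹ * g)⁻¹ ∈ (S : Subgroup G) := by
    rw [show m⁻¹ * g * q * (m⁻¹ * g)⁻¹ = m⁻¹ * (g * q * g⁻¹) * m by group]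
    exact (Subgroup.mem_normalizer_iff''.1 hm _).1 hgq
  obtain ⟨s, hs, hsq⟩ := h.fusion_cent S he hcen.2 hc hq h1
  refine ⟨m * s, mul_mem hm (Subgroup.le_normalizer hs), ?_⟩
  calc g * q * g⁻¹ = m * (m⁻¹ * g * q * (m⁻¹ * g)⁻¹) * m⁻¹ := by group
    _ = m * (s * q * s⁻¹) * m⁻¹ := by rw [hsq]
    _ = m * s * q * (m * s)⁻¹ := by group

theorem NC.central_of_fusion (h : NC G) (S : Sylow 2 G) {e g q : G} (he : orderOf e = 2)
    (hcen : Cen S e) (hcen' : Cen S (g * e * g⁻¹)) (hq : Cen S q)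
    (hgq : g * q * g⁻¹ ∈ (S : Subgroup G)) : Cen S (g * q * g⁻¹) := by
  obtain ⟨n, hn, hnq⟩ := h.fusion_of_central S he hcen hcen' hq.1 hgq
  exact hnq ▸ cen_conj S hn hq

/-- A 2-subgroup centralizing a central involution is conjugate into `S` inside the centralizer. -/
theorem conj_into (S : Sylow 2 G) {t : G} (ht : Cen S t) {P : Subgroup G} (hP : IsPGroup 2 ↥P)
    (hPt : ∀ x ∈ P, Commute x t) :
    ∃ c : G, Commute c t ∧ ∀ x ∈ P, c * x * c⁻¹ ∈ (S : Subgroup G) := by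
  have : Fact (Nat.Prime 2) := ⟨Nat.prime_two⟩
  set C := Subgroup.centralizer ({t} : Set G)
  have hSC : (S : Subgroup G) ≤ C := fun s hs => mem_cent.2 (ht.2 s hs)
  obtain ⟨Q, hQ⟩ := (hP.comap_subtype (K := C)).exists_le_sylow
  obtain ⟨c, hc⟩ := MulAction.exists_smul_eq ↥C Q (S.subtype hSC)
  refine ⟨(c : G), mem_cent.1 c.2, fun x hx => ?_⟩
  have h1 : c * ⟨x, mem_cent.2 (hPt x hx)⟩ * c⁻¹ ∈ ((c • Q : Sylow 2 ↥C) : Subgroup ↥C) :=
    H22.conj_mem_smul_sylow (hQ hx)
  rw [hc] at h1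
  exact h1

/-- A noncentral conjugate of a central involution has elementary centralizer in `S`. -/
theorem NC.exp_two (h : NC G) (S : Sylow 2 G) {t g x : G} (hcen : Cen S t)
    (hu : g * t * g⁻¹ ∈ (S : Subgroup G)) (hnc : ¬ Cen S (g * t * g⁻¹)) (hx : x ∈ (S : Subgroup G))
    (hxu : Commute x (g * t * g⁻¹)) : x * x = 1 := by
  by_contra hx2
  have hxe : x ≠ 1 := fun e => hx2 (by rw [e, one_mul])
  obtain ⟨he, hex⟩ := exists_involution_pow (even_orderOf_of_ne_one S hx hxe)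
  set e := x ^ (orderOf x / 2)
  have hce := h.sq_central S hx hx2 he hex
  set x₀ := g⁻¹ * x * g with hx₀def
  have hP : IsPGroup 2 ↥(Subgroup.zpowers x₀) := by
    obtain ⟨m, hm⟩ := exists_two_pow S hx
    refine IsPGroup.of_card (n := m) ?_
    rw [Nat.card_zpowers, ← hm, hx₀def]
    simpa using (MulAut.conj g⁻¹).orderOf_eq x
  have hx₀t : Commute x₀ t := by
    show x₀ * t = t * x₀
    calc x₀ * t = g⁻¹ * (x * (g * t * g⁻¹)) * g := by rw [hx₀def]; group
      _ = g⁻¹ * ((g * t * g⁻¹) * x) * g := by rw [hxu.eq]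
      _ = t * x₀ := by rw [hx₀def]; group
  obtain ⟨c, hct, hc⟩ := conj_into S hcen hP fun y hy => by
    obtain ⟨k, rfl⟩ := Subgroup.mem_zpowers_iff.1 hy
    exact hx₀t.zpow_left k
  set k := g * c⁻¹ with hkdef
  have hkt : k * t * k⁻¹ = g * t * g⁻¹ := by
    rw [hkdef, show g * c⁻¹ * t * (g * c⁻¹)⁻¹ = g * (c⁻¹ * t * c) * g⁻¹ by group]
    rw [show c⁻¹ * t * c = t by rw [mul_assoc, ← hct.eq, inv_mul_cancel_left]]
  set x₁ := k⁻¹ * x * k with hx₁def
  have hx₁ : x₁ ∈ (S : Subgroup G) := by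
    have := hc x₀ (Subgroup.mem_zpowers _)
    rwa [show c * x₀ * c⁻¹ = x₁ by rw [hx₀def, hx₁def, hkdef]; group] at this
  have hx₁2 : x₁ * x₁ ≠ 1 := fun e1 => hx2 (by
    calc x * x = k * (x₁ * x₁) * k⁻¹ := by rw [hx₁def]; group
      _ = 1 := by rw [e1]; group)
  have he₁ : orderOf (k⁻¹ * e * k) = 2 := by
    simpa using ((MulAut.conj k⁻¹).orderOf_eq e).trans he
  have hex₁ : k⁻¹ * e * k ∈ Subgroup.zpowers x₁ := by
    obtain ⟨j, hj⟩ := Subgroup.mem_zpowers_iff.1 hex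
    refine Subgroup.mem_zpowers_iff.2 ⟨j, ?_⟩
    rw [← hj, hx₁def, show k⁻¹ * x * k = k⁻¹ * x * (k⁻¹)⁻¹ by group, conj_zpow]
    group
  have hce₁ := h.sq_central S hx₁ hx₁2 he₁ hex₁
  have hke : k * (k⁻¹ * e * k) * k⁻¹ = e := by group
  have := h.central_of_fusion S he₁ hce₁ (by rw [hke]; exact hce) hcen (by rw [hkt]; exact hu)
  rw [hkt] at this
  exact hnc this

end Cfsg.Agent.H33.EC
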