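import Mathlib
import Cfsg.Agent.H33.EC.TwoGroup
import Cfsg.Agent.H28.ZStar

/-!
When central involutions are only fused to central ones, the Sylow normalizer controls fusion, and in a
perfect core-free group the Sylow 2-subgroup is abelian.
-/

set_option autoImplicit false

namespace Cfsg.Agent.H33.EC

variable {G : Type*} [Group G] [Finite G]

/-- Central involutions are only conjugate to central ones. -/
def CC (S : Sylow 2 G) : Prop :=
  ∀ t g : G, orderOf t = 2 → Cen S t → g * t * g⁻¹ ∈ (S : Subgroup G) → Cen S (g * t * g⁻¹)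

theorem exists_cen_involution (S : Sylow 2 G) (hS : (S : Subgroup G) ≠ ⊥) :
    ∃ t, orderOf t = 2 ∧ Cen S t := by
  have : Fact (Nat.Prime 2) := ⟨Nat.prime_two⟩
  haveI : Nontrivial (S : Subgroup G) := (Subgroup.nontrivial_iff_ne_bot _).2 hS
  haveI := IsPGroup.center_nontrivial S.2
  obtain ⟨z, hz, hz1⟩ := (Subgroup.nontrivial_iff_exists_ne_one _).1
    (IsPGroup.center_nontrivial S.2 : Nontrivial (Subgroup.center (S : Subgroup G)))
  obtain ⟨hi, hiz⟩ := exists_involution_pow (x := (z : G))
    (even_orderOf_of_ne_one S z.2 fun e => hz1 (Subtype.ext e))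
  refine ⟨_, hi, pow_mem z.2 _, fun s hs => ?_⟩
  have hc : Commute s (z : G) := congrArg Subtype.val (Subgroup.mem_center_iff.1 hz ⟨s, hs⟩)
  exact hc.pow_right _

/-- The normalizer of the Sylow subgroup controls fusion in it. -/
theorem NC.control (h : NC G) (S : Sylow 2 G) (hcc : CC S) {g q : G} (hq : q ∈ (S : Subgroup G))
    (hgq : g * q * g⁻¹ ∈ (S : Subgroup G)) :
    ∃ n ∈ Subgroup.normalizer ((S : Subgroup G) : Set G), g * q * g⁻¹ = n * q * n⁻¹ := by
  have : Fact (Nat.Prime 2) := ⟨Nat.prime_two⟩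
  by_cases hS : (S : Subgroup G) = ⊥
  · refine ⟨1, one_mem _, ?_⟩
    rw [hS, Subgroup.mem_bot] at hq
    subst hq
    simp
  obtain ⟨t, ht, htc⟩ := exists_cen_involution S hS
  let Z : Subgroup G :=
    { carrier := {x | Cen S x ∧ x * x = 1}
      one_mem' := ⟨⟨one_mem _, fun s _ => Commute.one_right s⟩, one_mul 1⟩
      mul_mem' := fun {a b} ha hb => ⟨⟨mul_mem ha.1.1 hb.1.1, fun s hs =>
          (ha.1.2 s hs).mul_right (hb.1.2 s hs)⟩, by
        rw [show a * b * (a * b) = a * (b * a) * b by group, ← (hb.1.2 a ha.1.1).eq,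
          show a * (a * b) * b = (a * a) * (b * b) by group, ha.2, hb.2, one_mul]⟩
      inv_mem' := fun {a} ha => by rw [inv_eq_of_mul_eq_one_right ha.2]; exact ha }
  have hZ : Z ≤ Subgroup.centralizer ((S : Subgroup G) : Set G) := fun x hx =>
    cen_mem_centralizer S hx.1
  have hW : IsWeaklyClosed Z (S : Subgroup G) := by
    refine ⟨fun x hx => hx.1.1, fun k hk => Subgroup.eq_of_le_of_card_ge ?_
      (by rw [Subgroup.card_map_of_injective (MulAut.conj k).injective])⟩
    rintro _ ⟨x, hx, rfl⟩
    have hmem := hk ⟨x, hx, rfl⟩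
    simp only [MulEquiv.toMonoidHom_eq_coe, MonoidHom.coe_coe, MulAut.conj_apply] at hmem ⊢
    by_cases hx1 : x = 1
    · subst hx1; rw [mul_one, mul_inv_cancel]; exact one_mem Z
    · refine ⟨hcc x k (orderOf_two_iff.2 ⟨hx.2, hx1⟩) hx.1 hmem, ?_⟩
      rw [show k * x * k⁻¹ * (k * x * k⁻¹) = k * (x * x) * k⁻¹ by group, hx.2, mul_one, mul_inv_cancel]
  obtain ⟨n, hn, hnq⟩ := H22.gruen_controls S Z hZ hW q hq g hgq
  have htn : n * t * n⁻¹ ∈ Z :=
    (Subgroup.mem_normalizer_iff.1 hn t).1 ⟨htc, (orderOf_two_iff.1 ht).1⟩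
  obtain ⟨m, hm, hmq⟩ := h.fusion_of_central S ht htc htn.1 hq (hnq ▸ hgq)
  exact ⟨m, hm, hnq ▸ hmq⟩

/-- The global hypotheses: trivial core and centre, and perfect. -/
structure Good (G : Type*) [Group G] : Prop where
  nc : NC G
  core : Cfsg.oddCore G = ⊥
  center : Subgroup.center G = ⊥
  perfect : commutator G = ⊤

theorem Good.not_isolated (h : Good G) (S : Sylow 2 G) {t : G} (ht : orderOf t = 2)
    (hiso : ∀ g : G, g * t * g⁻¹ ∈ (S : Subgroup G) → g * t * g⁻¹ = t) : False := by
  have h1 := H28.zStar (H28.isIsolatedInvolution_of_sylow S ht hiso)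
  have h2 : t ∈ Subgroup.center G := Subgroup.mem_center_iff.2 fun g => by
    have h3 := h1 g
    rw [show Cfsg.pPrimeCore 2 G = ⊥ from h.core, Subgroup.mem_bot] at h3
    calc g * t = t * g * t⁻¹ * g⁻¹ * (g * t) := by rw [h3, one_mul]
      _ = t * g := by group
  rw [h.center, Subgroup.mem_bot] at h2
  exact (orderOf_two_iff.1 ht).2 h2

theorem Good.focal (h : Good G) (S : Sylow 2 G) (hcc : CC S) (K : Subgroup G)
    (hK : ∀ q ∈ (S : Subgroup G), ∀ n ∈ Subgroup.normalizer ((S : Subgroup G) : Set G),
      q⁻¹ * (n * q * n⁻¹) ∈ K) : (S : Subgroup G) ≤ K := by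
  have : Fact (Nat.Prime 2) := ⟨Nat.prime_two⟩
  have h1 : (S : Subgroup G) ≤ commutator G ⊓ (S : Subgroup G) :=
    le_inf (by rw [h.perfect]; exact le_top) le_rfl
  rw [H22.commutator_inf_sylow_of_controls S _ Subgroup.le_normalizer fun x hx g hgx => by
    obtain ⟨n, hn, e⟩ := h.nc.control S hcc hx hgx; exact ⟨n, hn, e.symm⟩] at h1
  intro x hx
  have h2 : (S : Subgroup G).focalSubgroup ≤ K := by
    refine (H22.focalSubgroup_le_commutator_of_controls _
      (Subgroup.normalizer ((S : Subgroup G) : Set G)) fun y hy g hgy => ?_).trans ?_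
    · obtain ⟨n, hn, e⟩ := h.nc.control S hcc hy hgy; exact ⟨n, hn, e.symm⟩
    · refine Subgroup.commutator_le.2 fun a ha n hn => ?_
      have := hK a⁻¹ (inv_mem ha) n hn
      rw [inv_inv] at this
      rwa [commutatorElement_def, mul_assoc, mul_assoc, ← mul_assoc n]
  refine h2 ?_
  rw [← H22.commutator_inf_eq_focal _ (by
    obtain ⟨m, hm⟩ := IsPGroup.iff_card.1 S.2
    refine Nat.Coprime.of_dvd_right (Subgroup.relIndex_dvd_card (H := ⁅(S : Subgroup G), (S : Subgroup G)⁆) (K := (S : Subgroup G))) ?_
    rw [hm]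
    exact Nat.Coprime.pow_right _ (Nat.Coprime.symm ((Nat.prime_two.coprime_iff_not_dvd).2 S.not_dvd_index)))]
  exact ⟨by rw [h.perfect]; exact Subgroup.mem_top _, hx⟩

/-- The Sylow subgroup is abelian. -/
theorem Good.abelian (h : Good G) (S : Sylow 2 G) (hcc : CC S) :
    ∀ a ∈ (S : Subgroup G), ∀ b ∈ (S : Subgroup G), Commute a b := by
  have : Fact (Nat.Prime 2) := ⟨Nat.prime_two⟩
  have main : ∀ j : ℕ, ∀ x ∈ (S : Subgroup G), x * x ≠ 1 → orderOf x ≤ 2 ^ (j + 1) →
      ∀ s ∈ (S : Subgroup G), Commute s x := by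
    intro j
    induction j with
    | zero =>
      intro x hx hx2 hle
      obtain ⟨m, hm⟩ := exists_two_pow_four S hx hx2
      rw [hm, pow_add] at hle
      have := Nat.one_le_two_pow (n := m)
      norm_num at hle
      omega
    | succ j ih =>
      intro x hx hx2 hle
      by_cases hlow : orderOf x ≤ 2 ^ (j + 1)
      · exact ih x hx hx2 hlow
      -- the level set
      set n := j + 1 with hn
      have hxlev : orderOf x = 2 ^ (n + 1) := by
        obtain ⟨m, hm⟩ := exists_two_pow S hx
        rw [hm] at hle hlow ⊢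
        rw [Nat.pow_le_pow_iff_right (by norm_num)] at hle hlow
        congr 1
        omega
      let tau : G → G := fun y => y ^ (2 ^ n)
      have hlev : ∀ y ∈ (S : Subgroup G), orderOf y = 2 ^ (n + 1) →
          orderOf (tau y) = 2 ∧ Cen S (tau y) ∧
            ∀ s ∈ (S : Subgroup G), s * y * s⁻¹ = y ∨ s * y * s⁻¹ = y * tau y := by
        intro y hy hyo
        have hy2 : y * y ≠ 1 := fun e => by
          have h1 : orderOf y ∣ 2 := orderOf_dvd_of_pow_eq_one (by rw [pow_two]; exact e)
          rw [hyo, pow_add, pow_one] at h1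
          have h3 := Nat.le_of_dvd (by norm_num) h1
          have h4 : 2 ≤ 2 ^ n := by
            calc 2 = 2 ^ 1 := rfl
              _ ≤ 2 ^ n := Nat.pow_le_pow_right (by norm_num) (by omega)
          omega
        obtain ⟨hi, hiy⟩ := exists_involution_pow (even_orderOf_of_ne_one S hy fun e => hy2 (by rw [e, one_mul]))
        have htau : y ^ (orderOf y / 2) = tau y := by
          show y ^ (orderOf y / 2) = y ^ (2 ^ n)
          rw [hyo, pow_succ, Nat.mul_div_cancel _ (by norm_num)]
        rw [htau] at hi hiy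
        have hct := h.nc.sq_central S hy hy2 hi hiy
        refine ⟨hi, hct, fun s hs => ?_⟩
        have hmem := (h.nc.conj_mem_iff hi hiy s).2 (hct.2 s hs)
        have hsq : Commute s (y * y) := by
          by_cases hy4 : y * y * (y * y) = 1
          · rw [show y * y = tau y from eq_half_pow (orderOf_two_iff.2 ⟨hy4, hy2⟩)
              (mul_mem (Subgroup.mem_zpowers y) (Subgroup.mem_zpowers y)) |>.trans htau]
            exact hct.2 s hs
          · refine ih (y * y) (mul_mem hy hy) hy4 ?_ s hs
            rw [← pow_two, orderOf_pow y, hyo, Nat.gcd_eq_right (dvd_pow_self 2 (by omega)), pow_succ,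
              Nat.mul_div_cancel _ (by norm_num)]
        have hyc : Commute y (s * y * s⁻¹) := by
          obtain ⟨k, hk⟩ := Subgroup.mem_zpowers_iff.1 hmem
          rw [← hk]; exact (Commute.refl y).zpow_right k
        set w := y⁻¹ * (s * y * s⁻¹) with hw
        have hww : w * w = 1 := by
          rw [hw, show y⁻¹ * (s * y * s⁻¹) * (y⁻¹ * (s * y * s⁻¹)) =
            y⁻¹ * ((s * y * s⁻¹) * y⁻¹) * (s * y * s⁻¹) by group, ← hyc.inv_left.eq,
            show y⁻¹ * (y⁻¹ * (s * y * s⁻¹)) * (s * y * s⁻¹) = (y * y)⁻¹ * (s * (y * y) * s⁻¹) by group,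
            hsq.eq, mul_inv_cancel_right, inv_mul_cancel]
        by_cases hw1 : w = 1
        · exact Or.inl (inv_mul_eq_one.1 hw1).symm
        · refine Or.inr ?_
          have := (eq_half_pow (orderOf_two_iff.2 ⟨hww, hw1⟩)
            (mul_mem (inv_mem (Subgroup.mem_zpowers y)) hmem)).trans htau
          rw [hw, inv_mul_eq_iff_eq_mul] at this
          exact this
      -- two level elements with distinct involutions commute
      have hcomm : ∀ y ∈ (S : Subgroup G), ∀ z ∈ (S : Subgroup G), orderOf y = 2 ^ (n + 1) →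
          orderOf z = 2 ^ (n + 1) → tau y ≠ tau z → Commute y z := by
        intro y hy z hz hyo hzo hne
        obtain ⟨hyi, hyc, hym⟩ := hlev y hy hyo
        obtain ⟨hzi, hzc, hzm⟩ := hlev z hz hzo
        rcases hym z hz with e | e
        · exact (show Commute z y from mul_inv_eq_iff_eq_mul.1 e).symm
        rcases hzm y hy with e' | e'
        · exact mul_inv_eq_iff_eq_mul.1 e'
        exfalso
        refine hne ?_
        have h1 : tau y = y⁻¹ * (z * y * z⁻¹) := by rw [e, inv_mul_cancel_left]
        have h2 : tau z = z⁻¹ * (y * z * y⁻¹) := by rw [e', inv_mul_cancel_left]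
        have h3 : y⁻¹ * (z * y * z⁻¹) = (y * tau z) * 1 * (tau z)⁻¹ * y⁻¹ * tau y := by
          rw [← h1]; group
        calc tau y = (y * z)⁻¹ * (z * y) := by
              rw [show (z : G) * y = y * tau y * z by rw [← mul_inv_eq_iff_eq_mul.1 e], mul_inv_rev,
                show z⁻¹ * y⁻¹ * (y * tau y * z) = z⁻¹ * (tau y * z) by group, ← (hyc.2 z hz).eq,
                inv_mul_cancel_left]
          _ = ((z * y)⁻¹ * (y * z))⁻¹ := by group
          _ = (tau z)⁻¹ := by
              congr 1
              rw [show (y : G) * z = z * tau z * y by rw [← mul_inv_eq_iff_eq_mul.1 e'], mul_inv_rev,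
                show y⁻¹ * z⁻¹ * (z * tau z * y) = y⁻¹ * (tau z * y) by group, ← (hzc.2 y hy).eq,
                inv_mul_cancel_left]
          _ = tau z := inv_eq_of_mul_eq_one_right (orderOf_two_iff.1 hzi).1
      have hpair : ∀ y ∈ (S : Subgroup G), ∀ z ∈ (S : Subgroup G), orderOf y = 2 ^ (n + 1) →
          orderOf z = 2 ^ (n + 1) → tau y ≠ tau z → ∀ s ∈ (S : Subgroup G),
            Commute s y → Commute s z := by
        intro y hy z hz hyo hzo hne s hs hsy
        obtain ⟨hyi, hyc, -⟩ := hlev y hy hyo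
        obtain ⟨hzi, hzc, hzm⟩ := hlev z hz hzo
        rcases hzm s hs with e | e
        · exact mul_inv_eq_iff_eq_mul.1 e
        exfalso
        have hyz := hcomm y hy z hz hyo hzo hne
        have htau : tau (y * z) = tau y * tau z := hyz.mul_pow _
        have hyzo : orderOf (y * z) = 2 ^ (n + 1) := by
          refine orderOf_eq_prime_pow ?_ ?_
          · show ¬ tau (y * z) = 1
            rw [htau]
            intro e1
            exact hne (by rw [eq_inv_of_mul_eq_one_left e1]; exact inv_eq_of_mul_eq_one_right (orderOf_two_iff.1 hzi).1)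
          · rw [pow_succ, pow_mul, show (y * z) ^ 2 ^ n = tau (y * z) from rfl, htau, pow_two,
              show tau y * tau z * (tau y * tau z) = tau y * (tau z * tau y) * tau z by group,
              (hyc.2 (tau z) hzc.1).eq,
              show tau y * (tau y * tau z) * tau z = (tau y * tau y) * (tau z * tau z) by group,
              (orderOf_two_iff.1 hyi).1, (orderOf_two_iff.1 hzi).1, one_mul]
        obtain ⟨-, -, hyzm⟩ := hlev (y * z) (mul_mem hy hz) hyzo
        have e2 : s * (y * z) * s⁻¹ = y * z * tau z := by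
          rw [show s * (y * z) * s⁻¹ = (s * y * s⁻¹) * (s * z * s⁻¹) by group, e, hsy.eq,
            mul_inv_cancel_right, mul_assoc]
        rcases hyzm s hs with e3 | e3 <;> rw [e2] at e3
        · exact (orderOf_two_iff.1 hzi).2 (mul_eq_left.1 e3)
        · rw [htau, mul_left_cancel_iff, right_eq_mul] at e3
          exact (orderOf_two_iff.1 hyi).2 e3
      obtain ⟨hxi, hxc, hxm⟩ := hlev x hx hxlev
      -- a second involution among the level ones
      obtain ⟨y, hy, hyo, hxy⟩ : ∃ y ∈ (S : Subgroup G), orderOf y = 2 ^ (n + 1) ∧ tau x ≠ tau y := by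
        by_contra hcon
        push Not at hcon
        refine h.not_isolated S hxi fun g hg => ?_
        obtain ⟨m, hm, e⟩ := h.nc.control S hcc hxc.1 hg
        rw [e]
        have h1 : m * x * m⁻¹ ∈ (S : Subgroup G) := (Subgroup.mem_normalizer_iff.1 hm x).1 hx
        have h2 : orderOf (m * x * m⁻¹) = 2 ^ (n + 1) := by
          simpa using ((MulAut.conj m).orderOf_eq x).trans hxlev
        exact ((congrArg id (conj_pow (i := 2 ^ n) (a := m) (b := x))).symm).trans (hcon _ h1 h2).symm
      have huni : ∀ z ∈ (S : Subgroup G), orderOf z = 2 ^ (n + 1) → ∀ s ∈ (S : Subgroup G),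
          (Commute s x ↔ Commute s z) := by
        intro z hz hzo s hs
        by_cases hzt : tau x = tau z
        · constructor
          · exact fun hsx => hpair y hy z hz hyo hzo (fun e => hxy (hzt.trans e.symm)) s hs
              (hpair x hx y hy hxlev hyo hxy s hs hsx)
          · exact fun hsz => hpair y hy x hx hyo hxlev (Ne.symm hxy) s hs
              (hpair z hz y hy hzo hyo (fun e => hxy (hzt.trans e)) s hs hsz)
        · exact ⟨hpair x hx z hz hxlev hzo hzt s hs, hpair z hz x hx hzo hxlev (Ne.symm hzt) s hs⟩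
      have hK := h.focal S hcc (Subgroup.centralizer ({x} : Set G)) fun q hq m hm => by
        rw [mem_cent]
        have hq' : m * q * m⁻¹ ∈ (S : Subgroup G) := (Subgroup.mem_normalizer_iff.1 hm q).1 hq
        have hx' : m⁻¹ * x * m ∈ (S : Subgroup G) := (Subgroup.mem_normalizer_iff''.1 hm x).1 hx
        have hxo' : orderOf (m⁻¹ * x * m) = 2 ^ (n + 1) := by
          simpa using ((MulAut.conj m⁻¹).orderOf_eq x).trans hxlev
        have hiff : Commute q x ↔ Commute (m * q * m⁻¹) x := by
          rw [huni _ hx' hxo' q hq]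
          constructor
          · intro hc
            have := hc.map (MulAut.conj m).toMonoidHom
            simpa [mul_assoc] using this
          · intro hc
            have := hc.map (MulAut.conj m⁻¹).toMonoidHom
            simpa [mul_assoc] using this
        by_cases hc : Commute q x
        · exact hc.inv_left.mul_left (hiff.1 hc)
        · have e1 := (hxm q⁻¹ (inv_mem hq)).resolve_left fun e => hc
            (Commute.inv_left_iff.1 (mul_inv_eq_iff_eq_mul.1 e))
          have e2 := (hxm _ hq').resolve_left fun e => hc (hiff.2 (mul_inv_eq_iff_eq_mul.1 e))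
          refine mul_inv_eq_iff_eq_mul.1 ?_
          calc q⁻¹ * (m * q * m⁻¹) * x * (q⁻¹ * (m * q * m⁻¹))⁻¹
              = q⁻¹ * ((m * q * m⁻¹) * x * (m * q * m⁻¹)⁻¹) * q := by group
            _ = (q⁻¹ * x * q⁻¹⁻¹) * (q⁻¹ * tau x * q) := by rw [e2]; group
            _ = x * (tau x * tau x) := by
              rw [e1, (hxc.2 _ (inv_mem hq)).eq, inv_mul_cancel_right, mul_assoc]
            _ = x := by rw [(orderOf_two_iff.1 hxi).1, mul_one]
      intro s hs
      exact mem_cent.1 (hK hs)
  have hbig : ∀ x ∈ (S : Subgroup G), x * x ≠ 1 → ∀ s ∈ (S : Subgroup G), Commute s x := fun x hx hx2 =>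
    main (orderOf x) x hx hx2 ((Nat.lt_two_pow_self).le.trans (Nat.pow_le_pow_right (by norm_num) (by omega)))
  intro a ha b hb
  by_cases ha2 : a * a = 1
  swap
  · exact (hbig a ha ha2 b hb).symm
  by_cases hb2 : b * b = 1
  swap
  · exact hbig b hb hb2 a ha
  by_cases hab : a * b * (a * b) = 1
  · show a * b = b * a
    rw [eq_inv_of_mul_eq_one_left hab, mul_inv_rev, inv_eq_of_mul_eq_one_right ha2,
      inv_eq_of_mul_eq_one_right hb2]
  · have hc := (hbig _ (mul_mem ha hb) hab a ha).eq
    rw [mul_assoc a b a] at hc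
    exact mul_left_cancel hc

end Cfsg.Agent.H33.EC
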