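import Mathlib
import Cfsg.Agent.H33.EC.Control
import Cfsg.Agent.H89.Hamiltonian
import Cfsg.Agent.H7.AbelianCA.Final
import Cfsg.Agent.H25.PF14.Solvable

/-!
Abelian Sylow 2-subgroups: when the nontrivial odd cores of involution centralizers share one centralizer,
all these centralizers are elementary abelian 2-groups.
-/

set_option autoImplicit false

namespace Cfsg.Agent.H33.EC

variable {G : Type*} [Group G] [Finite G]

theorem NC.exists_prime (h : NC G) {t x : G} (ht : orderOf t = 2) (hx : x ∈ oddD t) (hx1 : x ≠ 1) :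
    ∃ (p : ℕ) (z : G), p.Prime ∧ z ∈ oddD t ∧ orderOf z = p ∧ z ∈ Subgroup.zpowers x := by
  obtain ⟨p, hp, hdvd⟩ := Nat.exists_prime_and_dvd (n := orderOf x) fun e => hx1 (orderOf_eq_one_iff.1 e)
  refine ⟨p, x ^ (orderOf x / p), hp, pow_mem hx _, ?_, pow_mem (Subgroup.mem_zpowers x) _⟩
  rw [orderOf_pow_of_dvd (Nat.div_pos (Nat.le_of_dvd (orderOf_pos x) hdvd) hp.pos).ne'
    (Nat.div_dvd_of_dvd hdvd), Nat.div_div_self hdvd (orderOf_pos x).ne']

theorem NC.conj_prime (h : NC G) {t u x : G} (ht : orderOf t = 2) (hu : u * u = 1) (hut : Commute u t)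
    (hx : x ∈ oddD t) (hp : (orderOf x).Prime) : Commute u x ∨ u * x * u⁻¹ = x⁻¹ := by
  obtain ⟨hxt, hodd⟩ := (h.mem_oddD ht).1 hx
  obtain ⟨k, hk⟩ := Subgroup.mem_zpowers_iff.1
    ((h.odd_iff ht hxt hodd (fun e => hp.ne_one (orderOf_eq_one_iff.2 e)) u).2 hut)
  have h1 : x ^ (k * k - 1) = 1 := by
    have e1 : x ^ (k * k) = x := by
      rw [zpow_mul, hk, conj_zpow, hk, show u * (u * x * u⁻¹) * u⁻¹ = (u * u) * x * (u * u)⁻¹ by group,
        hu, one_mul, inv_one, mul_one]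
    rw [zpow_sub_one, e1, mul_inv_cancel]
  have h2 := orderOf_dvd_iff_zpow_eq_one.2 h1
  rw [show k * k - 1 = (k - 1) * (k + 1) by ring] at h2
  rcases (Nat.prime_iff_prime_int.1 hp).dvd_or_dvd h2 with h3 | h3
  · left
    have h4 := orderOf_dvd_iff_zpow_eq_one.1 h3
    rw [zpow_sub_one, hk, mul_inv_eq_one] at h4
    exact mul_inv_eq_iff_eq_mul.1 h4
  · right
    have h4 := orderOf_dvd_iff_zpow_eq_one.1 h3
    rw [zpow_add_one, hk] at h4
    exact eq_inv_of_mul_eq_one_left h4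

/-- An involution without nontrivial fixed points in the odd core inverts it. -/
theorem NC.inverts_oddD (h : NC G) {t u : G} (ht : orderOf t = 2) (hu : u * u = 1) (hut : Commute u t)
    (hfix : ∀ x ∈ oddD t, Commute u x → x = 1) {x : G} (hx : x ∈ oddD t) : u * x * u⁻¹ = x⁻¹ := by
  let f : oddD t → oddD t := fun y =>
    ⟨(y : G)⁻¹ * (u * y * u⁻¹), mul_mem (inv_mem y.2) (oddD_conj hut y.2)⟩
  have hinj : Function.Injective f := fun a b hab => by
    have h1 : (a : G)⁻¹ * (u * a * u⁻¹) = (b : G)⁻¹ * (u * b * u⁻¹) := congrArg Subtype.val hab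
    have h2 : Commute u ((b : G) * (a : G)⁻¹) := by
      refine mul_inv_eq_iff_eq_mul.1 ?_
      calc u * ((b : G) * (a : G)⁻¹) * u⁻¹
          = (b : G) * ((b : G)⁻¹ * (u * b * u⁻¹)) * (u * a * u⁻¹)⁻¹ := by group
        _ = (b : G) * ((a : G)⁻¹ * (u * a * u⁻¹)) * (u * a * u⁻¹)⁻¹ := by rw [h1]
        _ = (b : G) * (a : G)⁻¹ := by group
    exact Subtype.ext (mul_inv_eq_one.1 (hfix _ (mul_mem b.2 (inv_mem a.2)) h2)).symm
  obtain ⟨y, hy⟩ := Finite.injective_iff_surjective.1 hinj ⟨x, hx⟩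
  have h1 : (y : G)⁻¹ * (u * y * u⁻¹) = x := congrArg Subtype.val hy
  rw [← h1]
  calc u * ((y : G)⁻¹ * (u * y * u⁻¹)) * u⁻¹
      = (u * y * u⁻¹)⁻¹ * ((u * u) * y * (u * u)⁻¹) := by group
    _ = ((y : G)⁻¹ * (u * y * u⁻¹))⁻¹ := by rw [hu]; group

theorem NC.oddD_comm (h : NC G) {t : G} (ht : orderOf t = 2) {a b : G} (ha : a ∈ oddD t)
    (hb : b ∈ oddD t) : Commute a b := by
  have hn : ∀ H : Subgroup ↥(oddD t), H.Normal := fun H => ⟨fun y hy g => by
    by_cases hy1 : y = 1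
    · subst hy1; simp
    obtain ⟨hyt, hodd⟩ := (h.mem_oddD ht).1 y.2
    have hmem := (h.odd_iff ht hyt hodd (fun e => hy1 (Subtype.ext e)) (g : G)).2
      ((h.mem_oddD ht).1 g.2).1
    exact Subgroup.zpowers_le.2 hy ((mem_zpowers_coe (g * y * g⁻¹) y).1 hmem)⟩
  have := H89.commute_of_odd hn (x := (⟨a, ha⟩ : oddD t))
    (by rw [← Subgroup.orderOf_coe]; exact ((h.mem_oddD ht).1 ha).2) ⟨b, hb⟩
  exact congrArg Subtype.val this.eq

/-- All nontrivial odd cores share one centralizer. -/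
def SameC (S : Sylow 2 G) : Prop :=
  ∀ t e x y : G, orderOf t = 2 → orderOf e = 2 → t ∈ (S : Subgroup G) → e ∈ (S : Subgroup G) →
    x ∈ oddD t → x ≠ 1 → y ∈ oddD e → y ≠ 1 → ∀ g : G, Commute g t ↔ Commute g e

theorem Good.not_normal (h : Good G) (S : Sylow 2 G) (hS : (S : Subgroup G) ≠ ⊥) :
    ¬ (S : Subgroup G).Normal := by
  intro hn
  have : Fact (Nat.Prime 2) := ⟨Nat.prime_two⟩
  have hq : Group.IsSolvable (G ⧸ (S : Subgroup G)) := by
    refine H25.PF14.odd_solvable _ ?_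
    rw [← Subgroup.index_eq_card, Nat.odd_iff]
    have := S.not_dvd_index
    omega
  haveI : Group.IsNilpotent (S : Subgroup G) := IsPGroup.isNilpotent S.2
  haveI hs : Group.IsSolvable (S : Subgroup G) := inferInstance
  have hG : Group.IsSolvable G := Group.isSolvable_of_ker_le_range (S : Subgroup G).subtype
    (QuotientGroup.mk' (S : Subgroup G)) (by simp)
  haveI : Nontrivial G := by
    obtain ⟨x, -, hx⟩ := (Subgroup.nontrivial_iff_exists_ne_one _).1
      ((Subgroup.nontrivial_iff_ne_bot _).2 hS)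
    exact ⟨x, 1, hx⟩
  exact absurd h.perfect (IsSolvable.commutator_lt_top_of_nontrivial G).ne

theorem abelian_cc (S : Sylow 2 G) (hab : ∀ a ∈ (S : Subgroup G), ∀ b ∈ (S : Subgroup G), Commute a b) :
    CC S := fun _ _ _ _ h => ⟨h, fun s hs => hab s hs _ h⟩

/-- Centralizers of involutions are elementary abelian subgroups of `S`. -/
theorem Good.elementary (h : Good G) (S : Sylow 2 G)
    (hab : ∀ a ∈ (S : Subgroup G), ∀ b ∈ (S : Subgroup G), Commute a b)
    (hnc : ¬ IsCyclic (S : Subgroup G)) (hsame : SameC S) {e : G} (he : orderOf e = 2)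
    (heS : e ∈ (S : Subgroup G)) {g : G} (hg : Commute g e) : g * g = 1 := by
  have : Fact (Nat.Prime 2) := ⟨Nat.prime_two⟩
  have hcc := abelian_cc S hab
  have hS1 : (S : Subgroup G) ≠ ⊥ := fun e' => (orderOf_two_iff.1 he).2 (by rwa [e', Subgroup.mem_bot] at heS)
  -- the Sylow subgroup centralizes every odd core
  have hcen : ∀ t : G, orderOf t = 2 → t ∈ (S : Subgroup G) → ∀ x ∈ oddD t, ∀ s ∈ (S : Subgroup G),
      Commute s x := by
    intro t ht htS x₀ hx₀
    by_cases hx₀1 : x₀ = 1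
    · subst hx₀1; exact fun s _ => Commute.one_right s
    have hnorm : ∀ n ∈ Subgroup.normalizer ((S : Subgroup G) : Set G), ∀ x ∈ oddD t, n * x * n⁻¹ ∈ oddD t := by
      intro n hn x hx
      by_cases hx1 : x = 1
      · subst hx1; simp
      obtain ⟨hxt, hodd⟩ := (h.nc.mem_oddD ht).1 hx
      have ht' : orderOf (n * t * n⁻¹) = 2 := by simpa using ((MulAut.conj n).orderOf_eq t).trans ht
      have hord : orderOf (n * x * n⁻¹) = orderOf x := by simpa using (MulAut.conj n).orderOf_eq x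
      have hx' : n * x * n⁻¹ ∈ oddD (n * t * n⁻¹) := (h.nc.mem_oddD ht').2
        ⟨by simpa using hxt.map (MulAut.conj n).toMonoidHom, by rw [hord]; exact hodd⟩
      refine (h.nc.mem_oddD ht).2 ⟨?_, by rw [hord]; exact hodd⟩
      exact (hsame t (n * t * n⁻¹) x (n * x * n⁻¹) ht ht' htS
        ((Subgroup.mem_normalizer_iff.1 hn t).1 htS) hx hx1 hx'
        (fun e' => hx1 (by simpa using e')) _).2 ((h.nc.mem_oddD ht').1 hx').1
    -- prime orders
    have hprime : ∀ x ∈ oddD t, (orderOf x).Prime → ∀ s ∈ (S : Subgroup G), Commute s x := by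
      intro z hz hzp
      have hpow : ∀ w ∈ oddD t, ∀ q ∈ (S : Subgroup G), w ≠ 1 → ∃ k : ℤ, w ^ k = q * w * q⁻¹ := by
        intro w hw q hq hw1
        obtain ⟨hwt, hwo⟩ := (h.nc.mem_oddD ht).1 hw
        exact Subgroup.mem_zpowers_iff.1 ((h.nc.odd_iff ht hwt hwo hw1 q).2 (hab q hq t htS))
      have huniv : ∀ w ∈ oddD t, orderOf w = orderOf z → ∀ q ∈ (S : Subgroup G), ∀ k : ℤ,
          z ^ k = q * z * q⁻¹ → q * w * q⁻¹ = w ^ k := by
        intro w hw hwp q hq k hk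
        by_cases hwz : w ∈ Subgroup.zpowers z
        · obtain ⟨j, rfl⟩ := Subgroup.mem_zpowers_iff.1 hwz
          rw [← conj_zpow, ← hk, ← zpow_mul, ← zpow_mul, mul_comm]
        have hw1 : w ≠ 1 := fun e' => hwz (by rw [e']; exact one_mem _)
        obtain ⟨l, hl⟩ := hpow w hw q hq hw1
        have hzw : Commute z w := h.nc.oddD_comm ht hz hw
        obtain ⟨m, hm⟩ := hpow (z * w) (mul_mem hz hw) q hq fun e' => hwz (by
          rw [eq_inv_of_mul_eq_one_right e']; exact inv_mem (Subgroup.mem_zpowers z))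
        have e1 : z ^ m * w ^ m = z ^ k * w ^ l := by
          rw [← hzw.mul_zpow, hm, hk, hl]; group
        have e2 : z ^ (m - k) = w ^ (l - m) := by
          rw [zpow_sub, zpow_sub]
          calc z ^ m * (z ^ k)⁻¹ = (z ^ k)⁻¹ * z ^ m := ((Commute.zpow_zpow_self z m k).inv_right).eq
            _ = (z ^ k)⁻¹ * (z ^ m * w ^ m) * (w ^ m)⁻¹ := by group
            _ = (z ^ k)⁻¹ * (z ^ k * w ^ l) * (w ^ m)⁻¹ := by rw [e1]
            _ = w ^ l * (w ^ m)⁻¹ := by group
        have e3 : (orderOf w : ℤ) ∣ l - m := by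
          by_contra hnd
          apply hwz
          rw [hwp] at hnd
          obtain ⟨a, b, hab'⟩ := ((Nat.prime_iff_prime_int.1 hzp).coprime_iff_not_dvd).2 hnd
          refine Subgroup.mem_zpowers_iff.2 ⟨(m - k) * b, ?_⟩
          rw [zpow_mul, e2, ← zpow_mul, show (l - m) * b = 1 - a * (orderOf z : ℤ) by linarith [hab'],
            zpow_sub, zpow_one, mul_comm a, zpow_mul, zpow_natCast, ← hwp, pow_orderOf_eq_one, one_zpow,
            inv_one, mul_one]
        have e4 : (orderOf z : ℤ) ∣ m - k := by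
          rw [orderOf_dvd_iff_zpow_eq_one, e2, ← orderOf_dvd_iff_zpow_eq_one]
          exact e3
        rw [← hl]
        refine orderOf_dvd_sub_iff_zpow_eq_zpow.1 ?_
        rw [hwp] at e3 ⊢
        have := dvd_add e4 e3
        rwa [show m - k + (l - m) = l - k by ring] at this
      have hK := h.focal S hcc (Subgroup.centralizer ({z} : Set G)) fun q hq n hn => by
        rw [mem_cent]
        have hz1 : z ≠ 1 := fun e' => hzp.ne_one (orderOf_eq_one_iff.2 e')
        obtain ⟨k, hk⟩ := hpow z hz q hq hz1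
        have hw : n⁻¹ * z * n ∈ oddD t := by
          simpa using hnorm n⁻¹ (inv_mem hn) z hz
        have hwo : orderOf (n⁻¹ * z * n) = orderOf z := by simpa using (MulAut.conj n⁻¹).orderOf_eq z
        have e1 := huniv _ hw hwo q hq k hk
        have e2 : n * q * n⁻¹ * z * (n * q * n⁻¹)⁻¹ = z ^ k := by
          calc n * q * n⁻¹ * z * (n * q * n⁻¹)⁻¹ = n * (q * (n⁻¹ * z * n) * q⁻¹) * n⁻¹ := by group
            _ = n * (n⁻¹ * z * n) ^ k * n⁻¹ := by rw [e1]
            _ = z ^ k := by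
              rw [← conj_zpow]; congr 1; group
        refine mul_inv_eq_iff_eq_mul.1 ?_
        calc q⁻¹ * (n * q * n⁻¹) * z * (q⁻¹ * (n * q * n⁻¹))⁻¹
            = q⁻¹ * (n * q * n⁻¹ * z * (n * q * n⁻¹)⁻¹) * q := by group
          _ = q⁻¹ * (q * z * q⁻¹) * q := by rw [e2, hk]
          _ = z := by group
      exact fun s hs => mem_cent.1 (hK hs)
    -- all orders
    have hall : ∀ m : ℕ, ∀ y ∈ oddD t, orderOf y ≤ m → ∀ s ∈ (S : Subgroup G), Commute s y := by
      intro m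
      induction m with
      | zero => intro y _ hy; exact absurd hy (by have := orderOf_pos y; omega)
      | succ m ih =>
        intro y hy hle s hs
        by_cases hy1 : y = 1
        · subst hy1; exact Commute.one_right s
        obtain ⟨p, hp, hdvd⟩ := Nat.exists_prime_and_dvd (n := orderOf y) fun e' =>
          hy1 (orderOf_eq_one_iff.1 e')
        have hlt : orderOf (y ^ p) ≤ m := by
          rw [orderOf_pow_of_dvd hp.ne_zero hdvd]
          have := Nat.div_lt_self (orderOf_pos y) hp.one_lt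
          omega
        have hfixp := ih _ (pow_mem hy p) hlt s hs
        obtain ⟨hyt, hyo⟩ := (h.nc.mem_oddD ht).1 hy
        set z := y⁻¹ * (s * y * s⁻¹) with hzdef
        have hzy : z ∈ Subgroup.zpowers y := mul_mem (inv_mem (Subgroup.mem_zpowers y))
          ((h.nc.odd_iff ht hyt hyo hy1 s).2 (hab s hs t htS))
        have hzp : z ^ p = 1 := by
          obtain ⟨k, hk⟩ := Subgroup.mem_zpowers_iff.1 ((h.nc.odd_iff ht hyt hyo hy1 s).2 (hab s hs t htS))
          rw [hzdef, Commute.mul_pow (by rw [← hk]; exact ((Commute.refl y).zpow_right k).inv_left),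
            inv_pow, conj_pow, hfixp.eq, mul_inv_cancel_right, inv_mul_cancel]
        have hzD : z ∈ oddD t := Subgroup.zpowers_le.2 hy hzy
        have hsz : Commute s z := by
          by_cases hz1 : z = 1
          · rw [hz1]; exact Commute.one_right s
          · haveI := Fact.mk hp
            exact hprime z hzD (by rw [orderOf_eq_prime hzp hz1]; exact hp) s hs
        have hiter : ∀ j : ℕ, s ^ j * y * (s ^ j)⁻¹ = y * z ^ j := by
          intro j
          induction j with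
          | zero => simp
          | succ j ihj =>
            rw [pow_succ', show s * s ^ j * y * (s * s ^ j)⁻¹ = s * (s ^ j * y * (s ^ j)⁻¹) * s⁻¹ by group,
              ihj, show s * (y * z ^ j) * s⁻¹ = (s * y * s⁻¹) * (s * z ^ j * s⁻¹) by group,
              (hsz.pow_right j).eq, mul_inv_cancel_right,
              show s * y * s⁻¹ = y * z by rw [hzdef, mul_inv_cancel_left], mul_assoc, ← pow_succ']
        obtain ⟨m', hm'⟩ := exists_two_pow S hs
        have h2 := hiter (2 ^ m')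
        rw [← hm', pow_orderOf_eq_one, one_mul, inv_one, mul_one, left_eq_mul, hm'] at h2
        have hz1 : z = 1 := by
          have hd1 := orderOf_dvd_of_pow_eq_one h2
          have hd2 : Odd (orderOf z) := ((h.nc.mem_oddD ht).1 hzD).2
          exact orderOf_eq_one_iff.1 (Nat.eq_one_of_dvd_coprimes
            (Nat.Coprime.pow_right m' (Nat.coprime_two_right.2 hd2)) dvd_rfl hd1)
        rw [hzdef, inv_mul_eq_one] at hz1
        exact mul_inv_eq_iff_eq_mul.1 hz1.symm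
    exact hall (orderOf x₀) x₀ hx₀ le_rfl
  have hH : H7.ACA.Hyp S := by
    refine ⟨hnc, h.not_normal S hS1, fun t ht => ⟨⟨fun a b => Subtype.ext ?_⟩⟩⟩
    obtain ⟨c, hc⟩ : ∃ c : G, c * t * c⁻¹ ∈ (S : Subgroup G) := by
      obtain ⟨Q, hQ⟩ := (IsPGroup.of_card (n := 1)
        (by rw [Nat.card_zpowers, ht, pow_one]) : IsPGroup 2 ↥(Subgroup.zpowers t)).exists_le_sylow
      obtain ⟨c, hc⟩ := MulAction.exists_smul_eq G Q S
      exact ⟨c, hc ▸ H22.conj_mem_smul_sylow (hQ (Subgroup.mem_zpowers t))⟩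
    have ht' : orderOf (c * t * c⁻¹) = 2 := by simpa using ((MulAut.conj c).orderOf_eq t).trans ht
    have hcomm : ∀ x y : G, Commute x (c * t * c⁻¹) → Commute y (c * t * c⁻¹) → Commute x y := by
      intro x y hx hy
      obtain ⟨d₁, hd₁, s₁, hs₁, rfl⟩ := h.nc.exists_mul S ht' (fun s hs => hab s hs _ hc) hx
      obtain ⟨d₂, hd₂, s₂, hs₂, rfl⟩ := h.nc.exists_mul S ht' (fun s hs => hab s hs _ hc) hy
      exact (((h.nc.oddD_comm ht' hd₁ hd₂).mul_right (hcen _ ht' hc d₁ hd₁ s₂ hs₂).symm).mul_left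
        ((hcen _ ht' hc d₂ hd₂ s₁ hs₁).mul_right (hab s₁ hs₁ s₂ hs₂)))
    have hmap := fun x : Subgroup.centralizer ({t} : Set G) => (mem_cent.1 x.2).map (MulAut.conj c).toMonoidHom
    have := (hcomm _ _ (hmap a) (hmap b)).map (MulAut.conj c⁻¹).toMonoidHom
    simpa [mul_assoc] using this.eq
  have := hH.sq_center (hH.mem_cenS_of_commute heS he hg.eq)
  rw [h.center, Subgroup.mem_bot, pow_two] at this
  exact this

/-- Three involutions outside a four-group give `SameC`. -/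
theorem NC.sameC_of_rank (h : NC G) (S : Sylow 2 G)
    (hab : ∀ a ∈ (S : Subgroup G), ∀ b ∈ (S : Subgroup G), Commute a b) {a b c : G}
    (ha : orderOf a = 2) (hb : orderOf b = 2) (hc : orderOf c = 2) (haS : a ∈ (S : Subgroup G))
    (hbS : b ∈ (S : Subgroup G)) (hcS : c ∈ (S : Subgroup G)) (hab' : a ≠ b) (hca : c ≠ a) (hcb : c ≠ b)
    (hcab : c ≠ a * b) : SameC S := by
  have hmul : ∀ u v : G, u ∈ (S : Subgroup G) → v ∈ (S : Subgroup G) → u * u = 1 → v * v = 1 →
      u * v * (u * v) = 1 := fun u v hu hv h1 h2 => by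
    rw [show u * v * (u * v) = u * (v * u) * v by group, ← (hab u hu v hv).eq,
      show u * (u * v) * v = (u * u) * (v * v) by group, h1, h2, one_mul]
  have key : ∀ t x : G, orderOf t = 2 → t ∈ (S : Subgroup G) → x ∈ oddD t → (orderOf x).Prime →
      ∃ f₁ f₂ : G, f₁ ∈ (S : Subgroup G) ∧ f₂ ∈ (S : Subgroup G) ∧ f₁ * f₁ = 1 ∧ f₂ * f₂ = 1 ∧
        f₁ ≠ 1 ∧ f₂ ≠ 1 ∧ f₁ ≠ f₂ ∧ Commute f₁ x ∧ Commute f₂ x := by
    intro t x ht htS hx hp
    have cls : ∀ u ∈ (S : Subgroup G), u * u = 1 → Commute u x ∨ u * x * u⁻¹ = x⁻¹ := fun u hu h1 =>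
      h.conj_prime ht h1 (hab u hu t htS) hx hp
    have prod : ∀ u v : G, u * x * u⁻¹ = x⁻¹ → v * x * v⁻¹ = x⁻¹ → Commute (u * v) x := by
      intro u v h1 h2
      refine mul_inv_eq_iff_eq_mul.1 ?_
      rw [show u * v * x * (u * v)⁻¹ = u * (v * x * v⁻¹) * u⁻¹ by group, h2,
        show u * x⁻¹ * u⁻¹ = (u * x * u⁻¹)⁻¹ by group, h1, inv_inv]
    obtain ⟨a1, a2⟩ := orderOf_two_iff.1 ha
    obtain ⟨b1, b2⟩ := orderOf_two_iff.1 hb
    obtain ⟨c1, c2⟩ := orderOf_two_iff.1 hc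
    have ai := inv_eq_of_mul_eq_one_right a1
    have bi := inv_eq_of_mul_eq_one_right b1
    have nab : a * b ≠ 1 := fun e => hab' (by rw [eq_inv_of_mul_eq_one_left e, bi])
    have nac : a * c ≠ 1 := fun e => hca (by rw [eq_inv_of_mul_eq_one_right e, ai])
    have nbc : b * c ≠ 1 := fun e => hcb (by rw [eq_inv_of_mul_eq_one_right e, bi])
    rcases cls a haS a1 with ea | ea <;> rcases cls b hbS b1 with eb | eb <;>
      rcases cls c hcS c1 with ec | ec
    · exact ⟨a, b, haS, hbS, a1, b1, a2, b2, hab', ea, eb⟩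
    · exact ⟨a, b, haS, hbS, a1, b1, a2, b2, hab', ea, eb⟩
    · exact ⟨a, c, haS, hcS, a1, c1, a2, c2, hca.symm, ea, ec⟩
    · exact ⟨a, b * c, haS, mul_mem hbS hcS, a1, hmul b c hbS hcS b1 c1, a2, nbc,
        fun e => hcab (by rw [(hab a haS b hbS).eq, e, ← mul_assoc, b1, one_mul]), ea, prod b c eb ec⟩
    · exact ⟨b, c, hbS, hcS, b1, c1, b2, c2, hcb.symm, eb, ec⟩
    · exact ⟨b, a * c, hbS, mul_mem haS hcS, b1, hmul a c haS hcS a1 c1, b2, nac,
        fun e => hcab (by rw [e, ← mul_assoc, a1, one_mul]), eb, prod a c ea ec⟩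
    · exact ⟨c, a * b, hcS, mul_mem haS hbS, c1, hmul a b haS hbS a1 b1, c2, nab, hcab, ec, prod a b ea eb⟩
    · exact ⟨a * b, a * c, mul_mem haS hbS, mul_mem haS hcS, hmul a b haS hbS a1 b1, hmul a c haS hcS a1 c1,
        nab, nac, fun e => hcb (mul_left_cancel e).symm, prod a b ea eb, prod a c ea ec⟩
  intro t e x₀ y₀ ht he htS heS hx₀ hx₀1 hy₀ hy₀1 g
  obtain ⟨p, x, hp, hx, hxo, -⟩ := h.exists_prime ht hx₀ hx₀1
  obtain ⟨q, y, hq, hy, hyo, -⟩ := h.exists_prime he hy₀ hy₀1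
  obtain ⟨f₁, f₂, h1S, h2S, h11, h22, h1n, h2n, hne, hf1, hf2⟩ := key t x ht htS hx (hxo ▸ hp)
  have cls : ∀ u ∈ (S : Subgroup G), u * u = 1 → Commute u y ∨ u * y * u⁻¹ = y⁻¹ := fun u hu h1 =>
    h.conj_prime he h1 (hab u hu e heS) hy (hyo ▸ hq)
  obtain ⟨f, hfS, hff, hfn, hfx, hfy⟩ : ∃ f ∈ (S : Subgroup G), f * f = 1 ∧ f ≠ 1 ∧ Commute f x ∧ Commute f y := by
    rcases cls f₁ h1S h11 with e1 | e1
    · exact ⟨f₁, h1S, h11, h1n, hf1, e1⟩
    rcases cls f₂ h2S h22 with e2 | e2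
    · exact ⟨f₂, h2S, h22, h2n, hf2, e2⟩
    refine ⟨f₁ * f₂, mul_mem h1S h2S, hmul f₁ f₂ h1S h2S h11 h22, fun e' => hne ?_, hf1.mul_left hf2, ?_⟩
    · rw [eq_inv_of_mul_eq_one_left e', inv_eq_of_mul_eq_one_right h22]
    · refine mul_inv_eq_iff_eq_mul.1 ?_
      rw [show f₁ * f₂ * y * (f₁ * f₂)⁻¹ = f₁ * (f₂ * y * f₂⁻¹) * f₁⁻¹ by group, e2,
        show f₁ * y⁻¹ * f₁⁻¹ = (f₁ * y * f₁⁻¹)⁻¹ by group, e1, inv_inv]
  have hf : orderOf f = 2 := orderOf_two_iff.2 ⟨hff, hfn⟩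
  have hxo' := ((h.mem_oddD ht).1 hx).2
  have hyo' := ((h.mem_oddD he).1 hy).2
  rw [h.commute_iff_of_common ht hf hx ((h.mem_oddD hf).2 ⟨hfx.symm, hxo'⟩)
      (fun e' => hp.ne_one (by rw [← hxo, e', orderOf_one])) g,
    h.commute_iff_of_common hf he ((h.mem_oddD hf).2 ⟨hfy.symm, hyo'⟩) hy
      (fun e' => hq.ne_one (by rw [← hyo, e', orderOf_one])) g]

end Cfsg.Agent.H33.EC
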