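import Mathlib
import Cfsg.Agent.H33.EC.TwoGroup

/-!
A noncentral conjugate of a central involution makes the Sylow 2-subgroup dihedral.
-/

set_option autoImplicit false

namespace Cfsg.Agent.H33.EC

variable {G : Type*} [Group G] [Finite G]

theorem NC.inverts (h : NC G) (S : Sylow 2 G) {t g v : G} (ht : orderOf t = 2) (hcen : Cen S t)
    (hu : g * t * g⁻¹ ∈ (S : Subgroup G)) (hnc : ¬ Cen S (g * t * g⁻¹))
    (hv : v ∈ (S : Subgroup G)) (hv2 : v * v ≠ 1) :
    (g * t * g⁻¹) * v * (g * t * g⁻¹)⁻¹ = v⁻¹ := by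
  have key := fun x hx hxu => h.exp_two S (x := x) hcen hu hnc hx hxu
  set u := g * t * g⁻¹ with hudef
  have huu : u * u = 1 := by
    rw [hudef, show g * t * g⁻¹ * (g * t * g⁻¹) = g * (t * t) * g⁻¹ by group,
      (orderOf_two_iff.1 ht).1, mul_one, mul_inv_cancel]
  clear_value u
  have hui : u⁻¹ = u := inv_eq_of_mul_eq_one_right huu
  obtain ⟨m, hm⟩ := exists_two_pow_four S hv hv2
  obtain ⟨ht₀, ht₀v⟩ := exists_involution_pow (x := v) (by rw [hm, pow_succ]; exact even_two.mul_left _)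
  set t₀ := v ^ (orderOf v / 2)
  have hct₀ := h.sq_central S hv hv2 ht₀ ht₀v
  obtain ⟨k, hk⟩ := Subgroup.mem_zpowers_iff.1 ((h.conj_mem_iff ht₀ ht₀v u).2 (hct₀.2 u hu))
  by_contra hne
  have hw2 : u * v * (u * v) = v ^ (k + 1) := by
    rw [zpow_add_one, hk, hui]; group
  have hy4 : (4 : ℤ) ∣ k + 1 := by
    set y := v ^ (2 ^ m) with hy
    have hyy : y * y = t₀ := by
      rw [eq_half_pow ht₀ ht₀v, hm, hy, ← pow_add]
      congr 1
      rw [pow_succ, pow_succ]; omega
    have hy4' : orderOf y = 4 := orderOf_four ht₀ hyy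
    have hconj : u * y * u⁻¹ = y ^ k := by
      rw [hy, ← conj_pow, ← hk, ← zpow_natCast, ← zpow_natCast, ← zpow_mul, ← zpow_mul, mul_comm]
    rcases h.four_conj ht₀ hyy (hct₀.2 u hu) with e | e
    · exfalso
      have h1 := key y (pow_mem hv _) (Commute.symm (mul_inv_eq_iff_eq_mul.1 e))
      rw [hyy] at h1
      exact (orderOf_two_iff.1 ht₀).2 h1
    · have h1 : y ^ (k + 1) = 1 := by rw [zpow_add_one, ← hconj, e, inv_mul_cancel]
      have h2 := orderOf_dvd_iff_zpow_eq_one.2 h1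
      rw [hy4'] at h2
      exact h2
  have hw2' : u * v * (u * v) ≠ 1 := fun e => hne (by
    rw [hw2] at e
    rw [← hk]
    exact eq_inv_of_mul_eq_one_left (by rw [← zpow_add_one]; exact e))
  obtain ⟨hi, hiw⟩ := exists_involution_pow (x := u * v)
    (even_orderOf_of_ne_one S (mul_mem hu hv) fun e => hw2' (by rw [e, one_mul]))
  have hci := h.sq_central S (mul_mem hu hv) hw2' hi hiw
  obtain ⟨j, hj⟩ := Subgroup.mem_zpowers_iff.1 ((h.conj_mem_iff hi hiw v).2 (hci.2 v hv))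
  have huvk : u * v ^ k = (u * v) ^ j := by
    rw [hj, hk, hui, ← mul_assoc, ← mul_assoc, ← mul_assoc, huu, one_mul]
    group
  rcases Int.even_or_odd' j with ⟨i, rfl | rfl⟩
  · rw [zpow_mul, zpow_two, hw2, ← zpow_mul] at huvk
    have huv : Commute u v := by
      rw [eq_mul_inv_of_mul_eq huvk, ← zpow_neg, ← zpow_add]
      exact (Commute.refl v).zpow_left _
    exact hv2 (key v hv huv.symm)
  · rw [zpow_add, zpow_mul, zpow_two, zpow_one, hw2, ← zpow_mul] at huvk
    have e2 : v ^ ((k + 1) * i) * u = u * v ^ (k * ((k + 1) * i)) := by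
      have e3 : u * v ^ ((k + 1) * i) * u⁻¹ = v ^ (k * ((k + 1) * i)) := by
        rw [← conj_zpow, ← hk, ← zpow_mul]
      rw [← e3, hui]
      simp only [← mul_assoc]
      rw [huu, one_mul]
    rw [← mul_assoc, e2, mul_assoc, mul_left_cancel_iff, ← zpow_add_one] at huvk
    have h1 : v ^ (k - (k * ((k + 1) * i) + 1)) = 1 := by rw [zpow_sub, ← huvk, mul_inv_cancel]
    have h2 := orderOf_dvd_iff_zpow_eq_one.2 h1
    have h4 : (4 : ℤ) ∣ (orderOf v : ℤ) := by
      rw [hm]; exact_mod_cast Dvd.intro_left (2 ^ m) (by rw [pow_add]; norm_num)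
    have h5 := h4.trans h2
    obtain ⟨q, hq⟩ := hy4
    rw [hq, show k * (4 * q * i) = 4 * (k * q * i) by ring] at h5
    omega

/-- Noncommuting would-be products of inverted elements. -/
theorem comm_of_inverted {u v w : G} (h1 : u * v * u⁻¹ = v⁻¹) (h2 : u * w * u⁻¹ = w⁻¹)
    (h3 : u * (v * w) * u⁻¹ = (v * w)⁻¹) : Commute v w := by
  rw [show u * (v * w) * u⁻¹ = (u * v * u⁻¹) * (u * w * u⁻¹) by group, h1, h2, mul_inv_rev] at h3
  have := congrArg (fun z => z⁻¹) h3
  simp only [mul_inv_rev, inv_inv] at this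
  exact this.symm

section

variable (h : NC G) (S : Sylow 2 G) {t g : G} (ht : orderOf t = 2) (hcen : Cen S t)
  (hu : g * t * g⁻¹ ∈ (S : Subgroup G)) (hnc : ¬ Cen S (g * t * g⁻¹))

include h ht hcen hu hnc

theorem commute_four {w y t₁ t₂ : G} (ht₁ : orderOf t₁ = 2) (ht₂ : orderOf t₂ = 2)
    (hw : w * w = t₁) (hy : y * y = t₂) (hwS : w ∈ (S : Subgroup G)) (hyS : y ∈ (S : Subgroup G)) :
    Commute w y := by
  have hw2 : w * w ≠ 1 := hw ▸ (orderOf_two_iff.1 ht₁).2
  have hy2 : y * y ≠ 1 := hy ▸ (orderOf_two_iff.1 ht₂).2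
  by_cases hwy : w * y * (w * y) = 1
  · have hct := h.sq_central S hyS hy2 ht₂ (mem_zpowers_four hy)
    rcases h.four_conj ht₂ hy (hct.2 w hwS) with e | e
    · exact mul_inv_eq_iff_eq_mul.1 e
    · exfalso
      have e1 : y⁻¹ = w * y * w := (eq_inv_of_mul_eq_one_left (by
        rw [← hwy]; group)).symm
      rw [e1] at e
      exact hw2 (by
        calc w * w = (w * y)⁻¹ * (w * y * w) * w := by group
          _ = (w * y)⁻¹ * (w * y * w⁻¹) * w := by rw [← e]
          _ = 1 := by group)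
  · exact comm_of_inverted (h.inverts S ht hcen hu hnc hwS hw2) (h.inverts S ht hcen hu hnc hyS hy2)
      (h.inverts S ht hcen hu hnc (mul_mem hwS hyS) hwy)

theorem commute_four_any {w v t₁ : G} (ht₁ : orderOf t₁ = 2) (hw : w * w = t₁)
    (hwS : w ∈ (S : Subgroup G)) (hvS : v ∈ (S : Subgroup G)) (hv2 : v * v ≠ 1) : Commute w v := by
  have hw2 : w * w ≠ 1 := hw ▸ (orderOf_two_iff.1 ht₁).2
  by_cases hwv : w * v * (w * v) = 1
  · obtain ⟨m, hm⟩ := exists_two_pow_four S hvS hv2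
    obtain ⟨ht₀, ht₀v⟩ := exists_involution_pow (x := v) (by rw [hm, pow_succ]; exact even_two.mul_left _)
    set t₀ := v ^ (orderOf v / 2) with ht₀def
    rcases m with _ | m
    · refine commute_four h S ht hcen hu hnc ht₁ ht₀ hw ?_ hwS hvS
      rw [ht₀def, hm]; norm_num [pow_two]
    · exfalso
      set y := v ^ (2 ^ (m + 1)) with hy
      have hyy : y * y = t₀ := by
        rw [ht₀def, hm, hy, ← pow_add]
        congr 1
        rw [pow_succ 2 (m + 2), pow_succ 2 (m + 1), pow_succ 2 m]; omega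
      have hwy := commute_four h S ht hcen hu hnc ht₁ ht₀ hw hyy hwS (pow_mem hvS _)
      have hct₁ := h.sq_central S hwS hw2 ht₁ (mem_zpowers_four hw)
      have e1 : w * v * w⁻¹ = v⁻¹ * t₁ := by
        have e2 : v⁻¹ = w * v * w := (eq_inv_of_mul_eq_one_left (by rw [← hwv]; group)).symm
        have e3 : w⁻¹ * w⁻¹ = t₁ := by
          rw [← mul_inv_rev, hw]; exact inv_eq_of_mul_eq_one_right (orderOf_two_iff.1 ht₁).1
        rw [e2, ← e3]; group
      have e4 : w * y * w⁻¹ = y⁻¹ := by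
        rw [hy, ← conj_pow, e1, ((hct₁.2 v hvS).inv_left).mul_pow, inv_pow,
          pow_succ' 2 m, pow_mul t₁, pow_two t₁, (orderOf_two_iff.1 ht₁).1, one_pow, mul_one]
      rw [hwy.eq, mul_inv_cancel_right] at e4
      exact (orderOf_two_iff.1 ht₀).2 (by rw [← hyy]; nth_rewrite 1 [e4]; exact inv_mul_cancel y)
  · exact comm_of_inverted (h.inverts S ht hcen hu hnc hwS hw2) (h.inverts S ht hcen hu hnc hvS hv2)
      (h.inverts S ht hcen hu hnc (mul_mem hwS hvS) hwv)

theorem commute_big : ∀ (n : ℕ) {w v : G}, orderOf w ≤ n → w ∈ (S : Subgroup G) → w * w ≠ 1 →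
    v ∈ (S : Subgroup G) → v * v ≠ 1 → Commute w v := by
  intro n
  induction n with
  | zero => intro w v hn; exact absurd hn (by have := orderOf_pos w; omega)
  | succ n ih =>
    intro w v hn hwS hw2 hvS hv2
    have hinv := fun x hx hx2 => h.inverts S ht hcen hu hnc (v := x) hx hx2
    by_cases h1 : w * v * (w * v) = 1
    swap
    · exact comm_of_inverted (hinv w hwS hw2) (hinv v hvS hv2) (hinv _ (mul_mem hwS hvS) h1)
    have hwi2 : w⁻¹ * w⁻¹ ≠ 1 := by
      rwa [← mul_inv_rev, inv_ne_one]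
    by_cases h2 : w⁻¹ * v * (w⁻¹ * v) = 1
    swap
    · have := comm_of_inverted (hinv _ (inv_mem hwS) hwi2) (hinv v hvS hv2)
        (hinv _ (mul_mem (inv_mem hwS) hvS) h2)
      exact Commute.inv_left_iff.1 this
    by_cases h4 : w * w * (w * w) = 1
    · exact commute_four_any h S ht hcen hu hnc
        (orderOf_two_iff.2 ⟨h4, hw2⟩) rfl hwS hvS hv2
    exfalso
    have hlt : orderOf (w * w) ≤ n := by
      rw [← pow_two, orderOf_pow w]
      obtain ⟨m, hm⟩ := exists_two_pow_four S hwS hw2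
      have : Nat.gcd (orderOf w) 2 = 2 := by
        rw [hm]; exact Nat.gcd_eq_right (dvd_pow_self 2 (by omega))
      rw [this]
      have := orderOf_pos w
      omega
    have hc : Commute (w * w) v := ih hlt (mul_mem hwS hwS) h4 hvS hv2
    have e1 : v⁻¹ = w * v * w := (eq_inv_of_mul_eq_one_left (by rw [← h1]; group)).symm
    have e2 : v⁻¹ = w⁻¹ * v * w⁻¹ := (eq_inv_of_mul_eq_one_left (by rw [← h2]; group)).symm
    refine h4 ?_
    have e3 : w * w * v * (w * w) = v := by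
      calc w * w * v * (w * w) = w * (w * v * w) * w := by group
        _ = w * v⁻¹ * w := by rw [e1]
        _ = (w⁻¹ * v * w⁻¹)⁻¹ := by group
        _ = v := by rw [← e2, inv_inv]
    calc w * w * (w * w) = v⁻¹ * (v * (w * w)) * (w * w) := by group
      _ = v⁻¹ * (w * w * v * (w * w)) := by rw [← hc.eq]; group
      _ = 1 := by rw [e3, inv_mul_cancel]

/-- The Sylow subgroup is dihedral. -/
theorem dihedral_data (hex : ∃ v ∈ (S : Subgroup G), v * v ≠ 1) :
    ∃ A u : G, A ∈ (S : Subgroup G) ∧ u ∈ (S : Subgroup G) ∧ u * u = 1 ∧ u * A * u⁻¹ = A⁻¹ ∧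
      u ∉ Subgroup.zpowers A ∧ 4 ≤ orderOf A ∧
      ∀ x ∈ (S : Subgroup G), x ∈ Subgroup.zpowers A ∨ x * u ∈ Subgroup.zpowers A := by
  have hexp := fun x hx hxu => h.exp_two S (x := x) hcen hu hnc hx hxu
  have hinv := fun x hx hx2 => h.inverts S ht hcen hu hnc (v := x) hx hx2
  have hbig := fun w hwS hw2 v hvS hv2 => commute_big h S ht hcen hu hnc (orderOf w) (w := w) (v := v) le_rfl hwS hw2 hvS hv2
  set u := g * t * g⁻¹ with hudef
  have huu : u * u = 1 := by
    rw [hudef, show g * t * g⁻¹ * (g * t * g⁻¹) = g * (t * t) * g⁻¹ by group,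
      (orderOf_two_iff.1 ht).1, mul_one, mul_inv_cancel]
  clear_value u
  set B : Set G := {v | v ∈ (S : Subgroup G) ∧ v * v ≠ 1} with hB
  set T := Subgroup.closure B with hT
  have hTS : T ≤ (S : Subgroup G) := (Subgroup.closure_le _).2 fun x hx => hx.1
  have hcomm : ∀ a ∈ T, ∀ b ∈ T, Commute a b := by
    have h1 : T ≤ Subgroup.centralizer B := (Subgroup.closure_le _).2 fun a ha =>
      Subgroup.mem_centralizer_iff.2 fun b hb =>
        (hbig b hb.1 hb.2 a ha.1 ha.2).eq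
    have h2 : T ≤ Subgroup.centralizer (T : Set G) := (Subgroup.closure_le _).2 fun b hb =>
      Subgroup.mem_centralizer_iff.2 fun a ha => (Subgroup.mem_centralizer_iff.1 (h1 ha) b hb).symm
    exact fun a ha b hb => (Subgroup.mem_centralizer_iff.1 (h2 ha) b hb).symm
  have hTinv : ∀ a ∈ T, u * a * u⁻¹ = a⁻¹ := by
    intro a ha
    induction ha using Subgroup.closure_induction with
    | mem x hx => exact hinv x hx.1 hx.2
    | one => simp
    | mul x y hx hy ex ey =>
      rw [show u * (x * y) * u⁻¹ = (u * x * u⁻¹) * (u * y * u⁻¹) by group, ex, ey,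
        (hcomm x hx y hy).eq, mul_inv_rev]
    | inv x hx ex =>
      rw [show u * x⁻¹ * u⁻¹ = (u * x * u⁻¹)⁻¹ by group, ex]
  obtain ⟨v₀, hv₀, hv₀2⟩ := hex
  have huT : u ∉ T := by
    intro hmem
    exact hv₀2 (hexp v₀ hv₀ (hcomm v₀ (Subgroup.subset_closure ⟨hv₀, hv₀2⟩) u hmem))
  have hclass : ∀ x ∈ (S : Subgroup G), x ∈ T ∨ x * u ∈ T := by
    intro x hx
    by_cases hx2 : x * x = 1
    swap
    · exact Or.inl (Subgroup.subset_closure ⟨hx, hx2⟩)
    by_cases hxu2 : x * u * (x * u) = 1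
    swap
    · exact Or.inr (Subgroup.subset_closure ⟨mul_mem hx hu, hxu2⟩)
    by_cases hxv2 : x * v₀ * (x * v₀) = 1
    swap
    · exact Or.inl (by
        have := mul_mem (Subgroup.subset_closure (k := B) ⟨mul_mem hx hv₀, hxv2⟩)
          (inv_mem (Subgroup.subset_closure (k := B) ⟨hv₀, hv₀2⟩))
        rwa [mul_inv_cancel_right] at this)
    have hxinv : x * v₀ * x⁻¹ = v₀⁻¹ := by
      rw [inv_eq_of_mul_eq_one_right hx2]
      exact eq_inv_of_mul_eq_one_left (by rw [← hxv2]; group)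
    have hc : Commute (x * u) v₀ := by
      refine mul_inv_eq_iff_eq_mul.1 ?_
      rw [show x * u * v₀ * (x * u)⁻¹ = x * (u * v₀ * u⁻¹) * x⁻¹ by group, hinv v₀ hv₀ hv₀2,
        show x * v₀⁻¹ * x⁻¹ = (x * v₀ * x⁻¹)⁻¹ by group, hxinv, inv_inv]
    refine Or.inr ?_
    have hbig : (x * u * v₀) * (x * u * v₀) ≠ 1 := by
      rw [show (x * u * v₀) * (x * u * v₀) = x * u * (v₀ * (x * u)) * v₀ by group, ← hc.eq,
        show x * u * (x * u * v₀) * v₀ = (x * u * (x * u)) * (v₀ * v₀) by group, hxu2, one_mul]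
      exact hv₀2
    have := mul_mem (Subgroup.subset_closure (k := B) ⟨mul_mem (mul_mem hx hu) hv₀, hbig⟩)
      (inv_mem (Subgroup.subset_closure (k := B) ⟨hv₀, hv₀2⟩))
    rwa [mul_inv_cancel_right] at this
  have hTcen : ∀ e ∈ T, e * e = 1 → Cen S e := by
    intro e he he2
    refine ⟨hTS he, fun s hs => ?_⟩
    have hue : Commute u e := by
      refine mul_inv_eq_iff_eq_mul.1 ?_
      rw [hTinv e he]; exact inv_eq_of_mul_eq_one_right he2
    rcases hclass s hs with hs' | hs'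
    · exact hcomm s hs' e he
    · have := (hcomm _ hs' e he).mul_left hue
      rwa [mul_assoc, huu, mul_one] at this
  have huniq : ∀ e₁ ∈ T, ∀ e₂ ∈ T, e₁ * e₁ = 1 → e₂ * e₂ = 1 → e₁ ≠ 1 → e₂ ≠ 1 → e₁ = e₂ := by
    intro e₁ he₁ e₂ he₂ h1 h2 hn1 hn2
    by_contra hne
    set Q : Subgroup G := ((S : Subgroup G) ⊓ Subgroup.centralizer ({u} : Set G)).map
      (MulAut.conj g⁻¹).toMonoidHom with hQ
    have hQt : ∀ x ∈ Q, Commute x t := by
      rintro _ ⟨x, ⟨-, hxu⟩, rfl⟩
      have h3 := (mem_cent.1 hxu).eq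
      show g⁻¹ * x * (g⁻¹)⁻¹ * t = t * (g⁻¹ * x * (g⁻¹)⁻¹)
      calc g⁻¹ * x * (g⁻¹)⁻¹ * t = g⁻¹ * (x * u) * g := by rw [hudef]; group
        _ = g⁻¹ * (u * x) * g := by rw [h3]
        _ = t * (g⁻¹ * x * (g⁻¹)⁻¹) := by rw [hudef]; group
    obtain ⟨c, hct, hc⟩ := conj_into S hcen (P := Q)
      ((S.2.to_le inf_le_left).map _) hQt
    set k := g * c⁻¹ with hkdef
    have hkt : k * t * k⁻¹ = u := by
      rw [hkdef, hudef, show g * c⁻¹ * t * (g * c⁻¹)⁻¹ = g * (c⁻¹ * t * c) * g⁻¹ by group,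
        show c⁻¹ * t * c = t by rw [mul_assoc, ← hct.eq, inv_mul_cancel_left]]
    clear_value k
    have hpull : ∀ e ∈ T, e * e = 1 → e ≠ 1 →
        k⁻¹ * e * k ∈ (S : Subgroup G) ∧ (k⁻¹ * e * k) * u ∈ T := by
      intro e he he2 he1
      have hce := hTcen e he he2
      have hmem : k⁻¹ * e * k ∈ (S : Subgroup G) := by
        have := hc _ ⟨e, ⟨hce.1, mem_cent.2 (hce.2 u hu).symm⟩, rfl⟩
        simpa [hkdef, mul_assoc] using this
      refine ⟨hmem, (hclass _ hmem).resolve_left fun hmT => hnc ?_⟩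
      have hord : orderOf (k⁻¹ * e * k) = 2 := by
        simpa using ((MulAut.conj k⁻¹).orderOf_eq e).trans (orderOf_two_iff.2 ⟨he2, he1⟩)
      have hc1 := hTcen _ hmT (orderOf_two_iff.1 hord).1
      have := h.central_of_fusion S (g := k) hord hc1 (by
        rw [show k * (k⁻¹ * e * k) * k⁻¹ = e by group]; exact hce) hcen (by rw [hkt]; exact hu)
      rwa [hkt] at this
    obtain ⟨hq₁, hq₁u⟩ := hpull e₁ he₁ h1 hn1
    obtain ⟨hq₂, hq₂u⟩ := hpull e₂ he₂ h2 hn2
    have he12 : e₁ * e₂ * (e₁ * e₂) = 1 := by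
      rw [show e₁ * e₂ * (e₁ * e₂) = e₁ * (e₂ * e₁) * e₂ by group, ← (hcomm e₁ he₁ e₂ he₂).eq,
        show e₁ * (e₁ * e₂) * e₂ = (e₁ * e₁) * (e₂ * e₂) by group, h1, h2, one_mul]
    have he12n : e₁ * e₂ ≠ 1 := fun e => hne (by
      rw [eq_inv_of_mul_eq_one_left e]; exact inv_eq_of_mul_eq_one_right h2)
    obtain ⟨-, hq12u⟩ := hpull _ (mul_mem he₁ he₂) he12 he12n
    have hq12 : k⁻¹ * (e₁ * e₂) * k ∈ T := by
      have := mul_mem hq₁u (inv_mem hq₂u)
      rw [mul_inv_rev, ← mul_assoc, mul_inv_cancel_right] at this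
      rwa [show k⁻¹ * (e₁ * e₂) * k = k⁻¹ * e₁ * k * (k⁻¹ * e₂ * k)⁻¹ by
        rw [show (k⁻¹ * e₂ * k)⁻¹ = k⁻¹ * e₂⁻¹ * k by group, inv_eq_of_mul_eq_one_right h2]; group]
    exact huT (by
      have := mul_mem (inv_mem hq12) hq12u
      rwa [inv_mul_cancel_left] at this)
  have hfin : B.Finite := Set.toFinite _
  obtain ⟨A, hA, hmax⟩ := Set.exists_max_image B orderOf hfin ⟨v₀, hv₀, hv₀2⟩
  have hAT : A ∈ T := Subgroup.subset_closure hA
  obtain ⟨mA, hmA⟩ := exists_two_pow_four S hA.1 hA.2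
  obtain ⟨hAi, hAiA⟩ := exists_involution_pow (x := A) (by rw [hmA, pow_succ]; exact even_two.mul_left _)
  have hgen : ∀ n : ℕ, ∀ x ∈ T, orderOf x ≤ n → x ∈ Subgroup.zpowers A := by
    intro n
    induction n with
    | zero => intro x _ hn; exact absurd hn (by have := orderOf_pos x; omega)
    | succ n ih =>
      intro x hx hn
      by_cases hx1 : x = 1
      · rw [hx1]; exact one_mem _
      by_cases hx2 : x * x = 1
      · rw [huniq x hx _ (Subgroup.zpowers_le.2 hAT hAiA) hx2 (orderOf_two_iff.1 hAi).1 hx1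
          (orderOf_two_iff.1 hAi).2]
        exact hAiA
      obtain ⟨m, hm⟩ := exists_two_pow_four S (hTS hx) hx2
      have hsq : orderOf (x * x) = 2 ^ (m + 1) := by
        rw [← pow_two, orderOf_pow x, hm, Nat.gcd_eq_right (dvd_pow_self 2 (by omega)), pow_succ,
          Nat.mul_div_cancel _ (by norm_num)]
      have hlt : orderOf (x * x) ≤ n := by
        rw [hsq]; rw [hm, pow_succ] at hn; have := Nat.one_le_two_pow (n := m + 1); omega
      obtain ⟨i, hi⟩ := Subgroup.mem_zpowers_iff.1 (ih _ (mul_mem hx hx) hlt)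
      rcases Int.even_or_odd' i with ⟨j, rfl | rfl⟩
      · have hxA : Commute x (A ^ j) := hcomm x hx _ (zpow_mem hAT j)
        set z := x * (A ^ j)⁻¹ with hz
        have hzT : z ∈ T := mul_mem hx (inv_mem (zpow_mem hAT j))
        have hz2 : z * z = 1 := by
          rw [hz, show x * (A ^ j)⁻¹ * (x * (A ^ j)⁻¹) = x * ((A ^ j)⁻¹ * x) * (A ^ j)⁻¹ by group,
            ← hxA.inv_right.eq, show x * (x * (A ^ j)⁻¹) * (A ^ j)⁻¹ = (x * x) * ((A ^ j)⁻¹ * (A ^ j)⁻¹) by
              group, ← hi]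
          group
        have hzA : z ∈ Subgroup.zpowers A := by
          by_cases hz1 : z = 1
          · rw [hz1]; exact one_mem _
          · rw [huniq z hzT _ (Subgroup.zpowers_le.2 hAT hAiA) hz2 (orderOf_two_iff.1 hAi).1 hz1
              (orderOf_two_iff.1 hAi).2]
            exact hAiA
        rw [show x = z * A ^ j by rw [hz, inv_mul_cancel_right]]
        exact mul_mem hzA (zpow_mem (Subgroup.mem_zpowers A) j)
      · exfalso
        have hle := hmax x ⟨hTS hx, hx2⟩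
        have hord : orderOf (A ^ (2 * j + 1)) = orderOf A := by
          rw [← Nat.card_zpowers, ← Nat.card_zpowers]
          congr 1
          have hA2 : ((2 * j + 1 : ℤ)).gcd (orderOf A) = 1 := by
            rw [hmA, Int.gcd, Int.natAbs_natCast]
            refine Nat.Coprime.pow_right _ ?_
            rw [Nat.coprime_two_right, Int.natAbs_odd]
            exact odd_two_mul_add_one j
          refine congrArg (fun K : Subgroup G => (K : Type _)) (le_antisymm
            (Subgroup.zpowers_le.2 (zpow_mem (Subgroup.mem_zpowers A) _)) (Subgroup.zpowers_le.2 ?_))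
          obtain ⟨a, b, hab⟩ := Int.isCoprime_iff_gcd_eq_one.2 hA2
          refine Subgroup.mem_zpowers_iff.2 ⟨a, ?_⟩
          rw [← zpow_mul, show (2 * j + 1) * a = 1 - b * (orderOf A : ℤ) by linarith [hab],
            zpow_sub, zpow_one, mul_comm b, zpow_mul, zpow_natCast, pow_orderOf_eq_one, one_zpow,
            inv_one, mul_one]
        rw [hi] at hord
        rw [hsq] at hord
        rw [hm, ← hord, pow_succ 2 (m + 1)] at hle
        have := Nat.one_le_two_pow (n := m + 1)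
        omega
  refine ⟨A, u, hA.1, hu, huu, hTinv A hAT, fun e => huT (Subgroup.zpowers_le.2 hAT e), ?_,
    fun x hx => (hclass x hx).imp (fun hxT => hgen _ x hxT le_rfl) (fun hxT => hgen _ _ hxT le_rfl)⟩
  rw [hmA, pow_add]
  have := Nat.one_le_two_pow (n := mA)
  omega

end

end Cfsg.Agent.H33.EC
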