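import Mathlib
import Cfsg.Agent.H70.AutPSL.FieldClass
import Cfsg.Agent.H33.EC.TwoGroup

/-!
A group with the normalizer condition between `PSL₂` and its automorphism group contains no automorphism
with a nontrivial field part.
-/

set_option autoImplicit false

namespace Cfsg.Agent.H33.EC

open Matrix Cfsg.Agent.H70.AutPSL

variable {F : Type*} [Field F] [Fintype F]

local notation "PSL₂" => Matrix.ProjectiveSpecialLinearGroup (Fin 2) F
local notation "GL₂" => GL (Fin 2) F
local notation "M₂" => Matrix (Fin 2) (Fin 2) F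

/-- Upper unitriangular matrices. -/
def upp (a : F) : GL₂ := Matrix.GeneralLinearGroup.mkOfDetNeZero !![1, a; 0, 1] (by simp [det_fin_two])

/-- Diagonal matrices `diag(a,1)`. -/
def dia (a : Fˣ) : GL₂ :=
  Matrix.GeneralLinearGroup.mkOfDetNeZero !![(a : F), 0; 0, 1] (by simp [det_fin_two])

/-- The Weyl element. -/
def wey : GL₂ := Matrix.GeneralLinearGroup.mkOfDetNeZero !![0, 1; -1, 0] (by simp [det_fin_two])

omit [Fintype F] in
theorem upp_coe (a : F) : ((upp a : GL₂) : M₂) = !![1, a; 0, 1] := rfl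

omit [Fintype F] in
theorem dia_coe (a : Fˣ) : ((dia a : GL₂) : M₂) = !![(a : F), 0; 0, 1] := rfl

omit [Fintype F] in
theorem wey_coe : ((wey : GL₂) : M₂) = !![0, 1; -1, 0] := rfl

omit [Fintype F] in
theorem upp_mul (a b : F) : (upp a : GL₂) * upp b = upp (a + b) := by
  apply Units.ext
  rw [Units.val_mul, upp_coe, upp_coe, upp_coe]
  ext i j
  fin_cases i <;> fin_cases j <;> simp [Matrix.mul_apply, add_comm]

omit [Fintype F] in
theorem upp_zero : (upp 0 : GL₂) = 1 := by
  apply Units.ext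
  ext i j
  fin_cases i <;> fin_cases j <;> simp [upp_coe]

omit [Fintype F] in
theorem upp_inv (a : F) : (upp a : GL₂)⁻¹ = upp (-a) :=
  inv_eq_of_mul_eq_one_right (by rw [upp_mul, add_neg_cancel, upp_zero])

omit [Fintype F] in
theorem upp_pow (n : ℕ) : (upp 1 : GL₂) ^ n = upp (n : F) := by
  induction n with
  | zero => rw [pow_zero, Nat.cast_zero, upp_zero]
  | succ n ih => rw [pow_succ, ih, upp_mul, Nat.cast_succ]

omit [Fintype F] in
theorem dia_mul (a b : Fˣ) : (dia a : GL₂) * dia b = dia (a * b) := by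
  apply Units.ext
  rw [Units.val_mul, dia_coe, dia_coe, dia_coe]
  ext i j
  fin_cases i <;> fin_cases j <;> simp [Matrix.mul_apply]

omit [Fintype F] in
theorem dia_one : (dia 1 : GL₂) = 1 := by
  apply Units.ext
  ext i j
  fin_cases i <;> fin_cases j <;> simp [dia_coe]

omit [Fintype F] in
theorem dia_pow (a : Fˣ) (n : ℕ) : (dia a : GL₂) ^ n = dia (a ^ n) := by
  induction n with
  | zero => rw [pow_zero, pow_zero, dia_one]
  | succ n ih => rw [pow_succ, ih, dia_mul, pow_succ]

omit [Fintype F] in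
theorem map_upp (σ : F ≃+* F) (a : F) : mapGL 2 σ (upp a) = upp (σ a) := by
  apply Units.ext
  rw [mapGL_coe, upp_coe, upp_coe]
  ext i j
  fin_cases i <;> fin_cases j <;> simp

omit [Fintype F] in
theorem map_dia (σ : F ≃+* F) (a : Fˣ) : mapGL 2 σ (dia a) = dia (Units.map (σ : F →* F) a) := by
  apply Units.ext
  rw [mapGL_coe, dia_coe, dia_coe]
  ext i j
  fin_cases i <;> fin_cases j <;> simp

omit [Fintype F] in
theorem map_wey (σ : F ≃+* F) : mapGL 2 σ wey = wey := by
  apply Units.ext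
  rw [mapGL_coe, wey_coe]
  ext i j
  fin_cases i <;> fin_cases j <;> simp

omit [Fintype F] in
theorem wey_dia (a : Fˣ) : (wey : GL₂) * dia a = scal 2 a * dia a⁻¹ * wey := by
  apply Units.ext
  rw [Units.val_mul, Units.val_mul, Units.val_mul, wey_coe, dia_coe, dia_coe, scal_coe]
  ext i j
  fin_cases i <;> fin_cases j <;> simp [Matrix.mul_apply, Matrix.one_apply]

omit [Fintype F] in
theorem wey_wey : (wey : GL₂) * wey = scal 2 (-1 : Fˣ) := by
  apply Units.ext
  rw [Units.val_mul, wey_coe, scal_coe]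
  ext i j
  fin_cases i <;> fin_cases j <;> simp [Matrix.mul_apply]

theorem upp_inj {a b : F} {σ : F ≃+* F} (h : semiAut (upp a) σ = semiAut (upp b) σ) : a = b := by
  obtain ⟨-, c, hc⟩ := semiAut_inj le_rfl h
  have e : ∀ i j, ((upp b : GL₂) : M₂) i j = ((c : F) • ((upp a : GL₂) : M₂)) i j := fun i j => by
    rw [hc, scal_mul_coe]
  have e1 := e 0 0
  have e2 := e 0 1
  simp [upp_coe] at e1 e2
  rw [← e1, one_mul] at e2
  exact e2.symm

theorem dia_inj {a b : Fˣ} {σ : F ≃+* F} (h : semiAut (dia a) σ = semiAut (dia b) σ) : a = b := by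
  obtain ⟨-, c, hc⟩ := semiAut_inj le_rfl h
  have e : ∀ i j, ((dia b : GL₂) : M₂) i j = ((c : F) • ((dia a : GL₂) : M₂)) i j := fun i j => by
    rw [hc, scal_mul_coe]
  have e1 := e 1 1
  have e2 := e 0 0
  simp [dia_coe] at e1 e2
  rw [← e1, one_mul] at e2
  exact Units.ext e2.symm

variable {G : Type*} [Group G] [Finite G]

/-- A group of automorphisms with the normalizer condition containing the inner ones. -/
structure Over {K : Type*} [Field K] {H : Type*} [Group H]
    (ψ : H →* MulAut (Matrix.ProjectiveSpecialLinearGroup (Fin 2) K)) : Prop where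
  nc : NC H
  inj : Function.Injective ψ
  inner : ∀ x : Matrix.ProjectiveSpecialLinearGroup (Fin 2) K, ∃ g, ψ g = MulAut.conj x

variable {ρ : G →* MulAut (Matrix.ProjectiveSpecialLinearGroup (Fin 2) F)} (h : Over ρ)
include h

theorem Over.exists_of_det {A : GL₂} (hA : (A : M₂).det = 1) : ∃ g, ρ g = innDiag 2 F A := by
  have h1 : innDiag 2 F A ∈ Cfsg.Inn PSL₂ := by
    rw [inn_eq_map]
    exact ⟨A, Units.ext (by simpa using hA), rfl⟩
  obtain ⟨x, hx⟩ := h1
  obtain ⟨g, hg⟩ := h.inner x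
  exact ⟨g, hg.trans hx⟩

theorem Over.shift {A B : GL₂} (hA : (A : M₂).det = 1) {σ : F ≃+* F} {g : G}
    (hg : ρ g = semiAut B σ) : ∃ g', ρ g' = semiAut (A * B) σ := by
  obtain ⟨a, ha⟩ := h.exists_of_det hA
  exact ⟨a * g, by rw [map_mul, ha, hg, innDiag_mul_semiAut]⟩

theorem Over.exists_upp (a : F) : ∃ g, ρ g = innDiag 2 F (upp a) :=
  h.exists_of_det (by simp [upp_coe, det_fin_two])

/-- Diagonal normal form. -/
theorem Over.exists_dia {B : GL₂} {σ : F ≃+* F} {g : G} (hg : ρ g = semiAut B σ) :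
    ∃ (δ : Fˣ) (g' : G), ρ g' = semiAut (dia δ) σ := by
  set δ : Fˣ := Matrix.GeneralLinearGroup.det B
  have hdet : ((dia δ * B⁻¹ : GL₂) : M₂).det = 1 := by
    rw [Units.val_mul, det_mul, dia_coe, det_fin_two_of, mul_zero, sub_zero, mul_one,
      show (δ : F) = (B : M₂).det from rfl, ← det_mul, ← Units.val_mul, mul_inv_cancel, Units.val_one, det_one]
  obtain ⟨g', hg'⟩ := h.shift hdet hg
  exact ⟨δ, g', by rw [hg', inv_mul_cancel_right]⟩

theorem Over.dia_sq {δ c : Fˣ} {σ : F ≃+* F} {g : G} (hg : ρ g = semiAut (dia δ) σ) :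
    ∃ g', ρ g' = semiAut (dia (δ * c ^ 2)) σ := by
  set A : GL₂ := (scal 2 c)⁻¹ * dia (c ^ 2) with hA
  have hA' : (A : M₂) = !![(c : F), 0; 0, (c : F)⁻¹] := by
    rw [hA, show ((scal 2 c)⁻¹ : GL₂) = scal 2 c⁻¹ from (map_inv _ c).symm, scal_mul_coe, dia_coe]
    ext i j
    fin_cases i <;> fin_cases j <;> simp [pow_two]
  obtain ⟨g', hg'⟩ := h.shift (A := A) (by rw [hA', det_fin_two_of]; simp) hg
  refine ⟨g', hg'.trans ?_⟩
  rw [← semiAut_scal_mul c (A * dia δ), hA, ← mul_assoc, ← mul_assoc, mul_inv_cancel, one_mul, dia_mul,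
    mul_comm δ]

theorem Over.pure {δ : Fˣ} {σ : F ≃+* F} {g : G} (hg : ρ g = semiAut (dia δ) σ) (hsq : IsSquare δ) :
    ∃ g', ρ g' = semiAut 1 σ := by
  obtain ⟨c, rfl⟩ := hsq
  obtain ⟨g', hg'⟩ := h.dia_sq (c := c⁻¹) hg
  refine ⟨g', hg'.trans ?_⟩
  rw [show c * c * c⁻¹ ^ 2 = 1 by rw [pow_two, mul_mul_mul_comm, mul_inv_cancel, mul_one], dia_one]

theorem Over.eq_of {a b : G} (e : ρ a = ρ b) : a = b := h.inj e

/-- No pure field automorphism of odd prime order. -/
theorem Over.no_pure_odd {σ : F ≃+* F} {g : G} (hg : ρ g = semiAut 1 σ) (hσ1 : σ ≠ 1)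
    (hodd : Odd (orderOf σ)) : False := by
  have hgo : orderOf g = orderOf σ := by
    rw [← orderOf_injective ρ h.inj, hg, orderOf_semiAut_one le_rfl]
  obtain ⟨w, hw⟩ := h.exists_of_det (A := wey) (by simp [wey_coe, det_fin_two])
  obtain ⟨u, hu⟩ := h.exists_upp 1
  have hw2 : w * w = 1 := h.eq_of (by
    rw [map_mul, map_one, hw, ← map_mul, wey_wey, innDiag_eq_one_iff le_rfl]
    exact ⟨-1, rfl⟩)
  have hw1 : w ≠ 1 := by
    intro e
    rw [e, map_one] at hw
    obtain ⟨a, ha⟩ := (innDiag_eq_one_iff le_rfl wey).1 hw.symm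
    have := congrArg (fun x : GL₂ => (x : M₂) 0 1) ha
    simp [scal_coe, wey_coe] at this
  have hcg : Commute g w := h.eq_of (by
    rw [map_mul, map_mul, hg, hw, semiAut_mul_innDiag, innDiag_mul_semiAut, map_wey, one_mul, mul_one])
  have hcu : Commute u g := h.eq_of (by
    rw [map_mul, map_mul, hg, hu, semiAut_mul_innDiag, innDiag_mul_semiAut, map_upp, map_one, one_mul,
      mul_one])
  have h1 := h.nc.centralizer_odd_le (orderOf_two_iff.2 ⟨hw2, hw1⟩) hcg (hgo ▸ hodd)
    (fun e => hσ1 (orderOf_eq_one_iff.1 (by rw [← hgo, e, orderOf_one]))) hcu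
  have h2 : ρ (u * w) = ρ (w * u) := congrArg ρ h1.eq
  rw [map_mul, map_mul, hu, hw, ← map_mul, ← map_mul, innDiag_eq_iff le_rfl] at h2
  obtain ⟨a, ha⟩ := h2
  have this : ((wey * upp 1 : GL₂) : M₂) 0 0 = ((a : F) • ((upp 1 * wey : GL₂) : M₂)) 0 0 := by
    rw [ha, scal_mul_coe]
  simp [wey_coe, upp_coe] at this

/-- No pure field involution in odd characteristic. -/
theorem Over.no_pure_two_odd {σ : F ≃+* F} {g : G} (hg : ρ g = semiAut 1 σ) (hσ : orderOf σ = 2)
    (hq : Odd (Fintype.card F)) : False := by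
  have hgo : orderOf g = 2 := by
    rw [← orderOf_injective ρ h.inj, hg, orderOf_semiAut_one le_rfl, hσ]
  obtain ⟨u, hu⟩ := h.exists_upp 1
  have hcu : Commute u g := h.eq_of (by
    rw [map_mul, map_mul, hg, hu, semiAut_mul_innDiag, innDiag_mul_semiAut, map_upp, map_one, one_mul,
      mul_one])
  have huo : Odd (orderOf u) := by
    refine hq.of_dvd_nat (orderOf_dvd_of_pow_eq_one (h.eq_of ?_))
    rw [map_pow, map_one, hu, ← map_pow, upp_pow, FiniteField.cast_card_eq_zero, upp_zero, map_one]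
  have hu1 : u ≠ 1 := by
    intro e
    rw [e, map_one] at hu
    have h1 : semiAut (upp (0 : F)) (RingEquiv.refl F) = semiAut (upp 1) (RingEquiv.refl F) := by
      rw [← innDiag_apply, ← innDiag_apply, upp_zero, map_one, hu]
    exact zero_ne_one (upp_inj h1)
  have hfix : σ = 1 := RingEquiv.ext fun a => by
    obtain ⟨x, hx⟩ := h.exists_upp a
    have hxu : Commute x u := h.eq_of (by
      rw [map_mul, map_mul, hu, hx, ← map_mul, ← map_mul, upp_mul, upp_mul, add_comm])
    have h2 : ρ (x * g) = ρ (g * x) :=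
      congrArg ρ (h.nc.centralizer_odd_le hgo hcu huo hu1 hxu).eq
    rw [map_mul, map_mul, hg, hx, innDiag_mul_semiAut, semiAut_mul_innDiag, map_upp, mul_one, one_mul] at h2
    exact (upp_inj h2).symm
  rw [hfix, orderOf_one] at hσ
  exact absurd hσ (by norm_num)

/-- No field involution in characteristic two, beyond four elements. -/
theorem Over.no_pure_two_even {σ : F ≃+* F} {g : G} (hg : ρ g = semiAut 1 σ) (hσ : orderOf σ = 2)
    (h2 : (2 : F) = 0) (hq : 4 < Fintype.card F) : False := by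
  classical
  obtain ⟨hσσ, hσ1⟩ := orderOf_two_iff.1 hσ
  have hss : ∀ a, σ (σ a) = a := fun a => RingEquiv.congr_fun hσσ a
  have hneg : ∀ a : F, -a = a := fun a => by linear_combination (-a) * h2
  have hgg : g * g = 1 := (orderOf_two_iff.1 (by
    rw [← orderOf_injective ρ h.inj, hg, orderOf_semiAut_one le_rfl, hσ])).1
  obtain ⟨b, hb⟩ : ∃ b, σ b ≠ b := by
    by_contra hcon
    push Not at hcon
    exact hσ1 (RingEquiv.ext hcon)
  set c := σ b + b with hc
  have hc0 : c ≠ 0 := fun e => hb (by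
    rw [hc, add_eq_zero_iff_eq_neg, hneg] at e
    exact e)
  have hσc : σ c = c := by rw [hc, map_add, hss, add_comm]
  obtain ⟨u, hu⟩ := h.exists_upp b
  obtain ⟨t, ht⟩ := h.exists_upp c
  set v := g * u with hv
  have hρv : ρ v = semiAut (upp (σ b)) σ := by
    rw [hv, map_mul, hg, hu, semiAut_mul_innDiag, map_upp, one_mul]
  have hvv : v * v = t := h.eq_of (by
    rw [map_mul, hρv, ht, semiAut_mul', map_upp, upp_mul, hss, innDiag_apply,
      show σ.trans σ = RingEquiv.refl F from RingEquiv.ext hss, hc])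
  have ht2 : orderOf t = 2 := by
    refine orderOf_two_iff.2 ⟨h.eq_of ?_, fun e => ?_⟩
    · rw [map_mul, map_one, ht, ← map_mul, upp_mul, show c + c = 0 by linear_combination c * h2,
        upp_zero, map_one]
    · rw [e, map_one] at ht
      have h1 : semiAut (upp (0 : F)) (RingEquiv.refl F) = semiAut (upp c) (RingEquiv.refl F) := by
        rw [← innDiag_apply, ← innDiag_apply, upp_zero, map_one, ht]
      exact hc0 (upp_inj h1).symm
  have hρvi : ρ v⁻¹ = semiAut (upp (σ b + c)) σ := by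
    rw [show v⁻¹ = v * t from inv_eq_of_mul_eq_one_right
      (by rw [← mul_assoc, hvv, (orderOf_two_iff.1 ht2).1]),
      map_mul, hρv, ht, semiAut_mul_innDiag, map_upp, upp_mul, hσc]
  have key : ∀ y, σ y + y = 0 ∨ σ y + y = c := by
    intro y
    obtain ⟨x, hx⟩ := h.exists_upp y
    have hxt : Commute x t := h.eq_of (by
      rw [map_mul, map_mul, ht, hx, ← map_mul, ← map_mul, upp_mul, upp_mul, add_comm])
    have hρc : ρ (x * v * x⁻¹) = semiAut (upp (σ b + (σ y + y))) σ := by
      rw [map_mul, map_mul, map_inv, hx, hρv, ← map_inv (innDiag 2 F), upp_inv, innDiag_mul_semiAut,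
        semiAut_mul_innDiag, map_upp, upp_mul, upp_mul, map_neg, hneg]
      congr 2
      ring
    rcases h.nc.four_conj ht2 hvv hxt with e | e
    · left
      rw [e, hρv] at hρc
      have := upp_inj hρc
      exact left_eq_add.1 this
    · right
      rw [e, hρvi] at hρc
      exact (add_left_cancel (upp_inj hρc)).symm
  have hF0 : ∀ a, σ a = a → a = 0 ∨ a = 1 := by
    intro a ha
    rcases key (a * b) with e | e
    · rw [map_mul, ha, ← mul_add, ← hc] at e
      exact Or.inl ((mul_eq_zero.1 e).resolve_right hc0)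
    · rw [map_mul, ha, ← mul_add, ← hc] at e
      exact Or.inr ((mul_eq_right₀ hc0).1 e)
  have hall : (Finset.univ : Finset F) ⊆ {0, 1, b, 1 + b} := by
    intro y _
    rcases key y with e | e
    · rw [add_eq_zero_iff_eq_neg, hneg] at e
      rcases hF0 y e with rfl | rfl <;> simp
    · have h1 : σ (y + b) = y + b := by
        rw [map_add]
        linear_combination e + (c - y - b) * h2 + hc
      rcases hF0 _ h1 with e1 | e1
      · rw [add_eq_zero_iff_eq_neg, hneg] at e1
        simp [e1]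
      · have : y = 1 + b := by linear_combination e1 + (-b) * h2
        simp [this]
  have := (Finset.card_le_card hall).trans Finset.card_le_four
  rw [Finset.card_univ] at this
  omega

end Cfsg.Agent.H33.EC
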