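import Mathlib
import Cfsg.Agent.H33.EC.Field

/-!
The remaining case of a field automorphism times a diagonal one, and the conclusion that all field parts are
trivial.
-/

set_option autoImplicit false

namespace Cfsg.Agent.H33.EC

open Matrix Cfsg.Agent.H70.AutPSL

variable {F : Type*} [Field F] [Fintype F]

theorem ringChar_ne_two (hq : Odd (Fintype.card F)) : ringChar F ≠ 2 := fun e => by
  have := FiniteField.even_card_iff_char_two.1 e
  rw [Nat.odd_iff] at hq
  omega

theorem exists_fixed_data {σ : F ≃+* F} (hσ : orderOf σ = 2) :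
    ∃ q₀ : ℕ, Fintype.card F = q₀ ^ 2 ∧ ∀ y : F, σ y = y → y ≠ 0 → y ^ (q₀ - 1) = 1 := by
  classical
  obtain ⟨p, hp⟩ := CharP.exists F
  obtain ⟨f, hpr, hf⟩ := FiniteField.card F p
  have : Fact p.Prime := ⟨hpr⟩
  obtain ⟨-, hq⟩ := exists_pow_of_orderOf hf (r := 2) two_pos hσ
  refine ⟨_, hq, fun y hy hy0 => ?_⟩
  have hc := H67.card_autFixedField two_pos hq σ hσ
  let K := H67.autFixedField σ
  haveI : Fintype K := Fintype.ofFinite K
  have h1 := FiniteField.pow_card_sub_one_eq_one (⟨y, hy⟩ : K) fun e => hy0 (congrArg Subtype.val e)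
  rw [← Nat.card_eq_fintype_card, hc] at h1
  exact congrArg Subtype.val h1

theorem fixed_isSquare {σ : F ≃+* F} (hσ : orderOf σ = 2) (hq : Odd (Fintype.card F)) {y : Fˣ}
    (hy : σ (y : F) = y) : IsSquare y := by
  obtain ⟨q₀, hq₀, hpow⟩ := exists_fixed_data hσ
  rw [FiniteField.unit_isSquare_iff (ringChar_ne_two hq)]
  have h1 : y ^ (q₀ - 1) = 1 := Units.ext (by
    rw [Units.val_pow_eq_pow_val, Units.val_one]
    exact hpow y hy y.ne_zero)
  have ho : Odd q₀ := by
    rw [hq₀] at hq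
    exact Nat.Odd.of_mul_left (n := q₀) (by rwa [← pow_two])
  obtain ⟨m, rfl⟩ := ho
  rw [hq₀, show (2 * m + 1) ^ 2 / 2 = (2 * m + 1 - 1) * (m + 1) by
    rw [Nat.add_sub_cancel, show (2 * m + 1) ^ 2 = 2 * (2 * m * (m + 1)) + 1 by ring]
    omega, pow_mul, h1, one_pow]

/-- Norms are squares. -/
theorem mul_map_isSquare (σ : F ≃+* F) (hq : Odd (Fintype.card F)) (δ : Fˣ) :
    IsSquare (δ * Units.map (σ : F →* F) δ) := by
  rw [FiniteField.unit_isSquare_iff (ringChar_ne_two hq)]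
  set x := δ ^ (Fintype.card F / 2) with hx
  have hxx : (x : F) * x = 1 := by
    rw [hx, Units.val_pow_eq_pow_val, ← pow_add]
    refine Eq.trans ?_ (FiniteField.pow_card_sub_one_eq_one (δ : F) δ.ne_zero)
    congr 1
    rw [Nat.odd_iff] at hq
    omega
  have hfix : Units.map (σ : F →* F) x = x := by
    refine Units.ext ?_
    show σ (x : F) = x
    rcases mul_self_eq_one_iff.1 hxx with e | e <;> rw [e] <;> simp
  rw [mul_pow, ← map_pow, ← hx, hfix]
  exact Units.ext hxx

theorem isSquare_of_two (h2 : ringChar F = 2) (δ : Fˣ) : IsSquare δ := by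
  obtain ⟨c, hc⟩ := FiniteField.isSquare_of_char_two h2 (δ : F)
  have hc0 : c ≠ 0 := fun e => δ.ne_zero (by rw [hc, e, mul_zero])
  exact ⟨Units.mk0 c hc0, Units.ext hc⟩

variable {G : Type*} [Group G] [Finite G]
variable {ρ : G →* MulAut (Matrix.ProjectiveSpecialLinearGroup (Fin 2) F)} (h : Over ρ)
include h

/-- A field involution times a nonsquare diagonal is impossible. -/
theorem Over.no_dia_two {δ : Fˣ} {σ : F ≃+* F} {g : G} (hg : ρ g = semiAut (dia δ) σ)
    (hσ : orderOf σ = 2) (hq : Odd (Fintype.card F)) (hns : ¬ IsSquare δ) : False := by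
  classical
  obtain ⟨q₀, hq₀, hpow⟩ := exists_fixed_data hσ
  obtain ⟨hσσ, hσ1⟩ := orderOf_two_iff.1 hσ
  have hss : σ.trans σ = RingEquiv.refl F := hσσ
  have hss' : ∀ a, σ (σ a) = a := fun a => RingEquiv.congr_fun hσσ a
  let σu : Fˣ →* Fˣ := Units.map (σ : F →* F)
  obtain ⟨δ', g', hg', hns', hnfix⟩ : ∃ (δ' : Fˣ) (g' : G), ρ g' = semiAut (dia δ') σ ∧ ¬ IsSquare δ' ∧
      σu (δ' ^ 2) ≠ δ' ^ 2 := by
    by_contra hcon
    push Not at hcon
    have hall : ∀ c : Fˣ, σu ((δ * c ^ 2) ^ 2) = (δ * c ^ 2) ^ 2 := by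
      intro c
      obtain ⟨g', hg'⟩ := h.dia_sq (c := c) hg
      refine hcon _ g' hg' fun hs => hns ?_
      have h1 := hs.mul (IsSquare.sq c⁻¹)
      rwa [mul_assoc, ← mul_pow, mul_inv_cancel, one_pow, mul_one] at h1
    have hd : σu (δ ^ 2) = δ ^ 2 := by simpa using hall 1
    obtain ⟨ε, hε⟩ := IsCyclic.exists_generator (α := Fˣ)
    have h4 : σu ((ε ^ 2) ^ 2) = (ε ^ 2) ^ 2 := by
      have h1 := hall ε
      rw [mul_pow, map_mul, hd] at h1
      exact mul_left_cancel h1
    have hε4 : ε ^ (4 * (q₀ - 1)) = 1 := by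
      refine Units.ext ?_
      have h1 := hpow (((ε ^ 2) ^ 2 : Fˣ) : F) (congrArg Units.val h4) (Units.ne_zero _)
      rw [← Units.val_pow_eq_pow_val, ← pow_mul, ← pow_mul, ← mul_assoc] at h1
      exact h1
    have hord : orderOf ε = q₀ ^ 2 - 1 := by
      rw [orderOf_eq_card_of_forall_mem_zpowers hε, Nat.card_eq_fintype_card, Fintype.card_units, hq₀]
    have hge : 3 ≤ q₀ := by
      have h1 := Fintype.one_lt_card (α := F)
      rw [hq₀] at h1 hq
      by_contra hlt
      interval_cases q₀ <;> simp_all <;> exact absurd hq (by decide)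
    have hle : q₀ ^ 2 - 1 ≤ 4 * (q₀ - 1) := hord ▸ Nat.le_of_dvd (by omega) (orderOf_dvd_of_pow_eq_one hε4)
    obtain ⟨m, rfl⟩ : ∃ m, q₀ = m + 3 := ⟨q₀ - 3, by omega⟩
    have hm : m = 0 := by
      rw [show (m + 3) ^ 2 = m * m + 6 * m + 9 by ring] at hle
      omega
    subst hm
    refine hns ((FiniteField.unit_isSquare_iff (ringChar_ne_two hq) δ).2 (Units.ext ?_))
    have h1 := hpow ((δ ^ 2 : Fˣ) : F) (congrArg Units.val hd) (Units.ne_zero _)
    rw [hq₀, Units.val_one, ← h1, ← Units.val_pow_eq_pow_val, ← pow_mul]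
    norm_num
  clear hg hns δ g
  rename' δ' => δ, g' => g, hg' => hg, hns' => hns
  set N := δ * σu δ with hN
  have hσN : σu N = N := by
    have : σu (σu δ) = δ := Units.ext (hss' δ)
    rw [hN, map_mul, this, mul_comm]
  have hgg : ρ (g * g) = innDiag 2 F (dia N) := by
    rw [map_mul, hg, semiAut_mul', map_dia, dia_mul, hss, innDiag_apply]
  have heven : ∀ i : ℕ, ρ (g ^ (2 * i)) = innDiag 2 F (dia (N ^ i)) := fun i => by
    rw [pow_mul, pow_two, map_pow, hgg, ← map_pow, dia_pow]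
  have hodd : ∀ i : ℕ, ρ (g ^ (2 * i + 1)) = semiAut (dia (N ^ i * δ)) σ := fun i => by
    rw [pow_succ, map_mul, heven, hg, innDiag_mul_semiAut, dia_mul]
  have hNsq : IsSquare N := fixed_isSquare hσ hq (congrArg Units.val hσN)
  have hNe : Even (orderOf N) := by
    by_contra hno
    obtain ⟨i, hi⟩ := Nat.not_even_iff_odd.1 hno
    set d := N ^ i * δ with hd
    have hdd : d * σu d = 1 := by
      rw [hd, map_mul, map_pow, hσN, mul_mul_mul_comm, ← hN, ← pow_add, ← pow_succ, ← two_mul, ← hi,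
        pow_orderOf_eq_one]
    have hdsq : IsSquare d := by
      by_cases hm : (d : F) = -1
      · exact fixed_isSquare hσ hq (by rw [hm, map_neg, map_one])
      have hc0 : (1 : F) + d ≠ 0 := fun e => hm (eq_neg_of_add_eq_zero_right e)
      set c := Units.mk0 _ hc0 with hc
      have h1 : d * σu c = c := by
        refine Units.ext ?_
        have h2 : (d : F) * σ d = 1 := congrArg Units.val hdd
        show (d : F) * σ (1 + d) = 1 + d
        rw [map_add, map_one]
        linear_combination h2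
      have h3 : σu (c * σu c) = c * σu c := by
        rw [map_mul, show σu (σu c) = c from Units.ext (hss' c), mul_comm]
      obtain ⟨r, hr⟩ := fixed_isSquare hσ hq (congrArg Units.val h3)
      refine ⟨c * r⁻¹, ?_⟩
      rw [mul_mul_mul_comm, ← _root_.mul_inv_rev, ← hr]
      calc d = d * (σu c * c) * (c * σu c)⁻¹ := by rw [mul_comm (σu c), mul_inv_cancel_right]
        _ = c * c * (c * σu c)⁻¹ := by rw [← mul_assoc, h1]
    obtain ⟨r, hr⟩ := hdsq
    obtain ⟨s, hs⟩ := hNsq.pow i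
    refine hns ⟨s⁻¹ * r, ?_⟩
    rw [mul_mul_mul_comm, ← _root_.mul_inv_rev, ← hs, ← hr, hd, inv_mul_cancel_left]
  obtain ⟨hk, -⟩ := exists_involution_pow hNe
  set k := orderOf N / 2
  obtain ⟨hk2, hk1⟩ := orderOf_two_iff.1 hk
  have hNk : (N ^ k : Fˣ) = -1 := by
    have h1 : ((N ^ k : Fˣ) : F) * (N ^ k : Fˣ) = 1 := congrArg Units.val hk2
    rcases mul_self_eq_one_iff.1 h1 with e | e
    · exact absurd (Units.ext e) hk1
    · exact Units.ext e
  set t := g ^ (2 * k) with htdef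
  have ht : orderOf t = 2 := by
    refine orderOf_two_iff.2 ⟨h.eq_of ?_, fun e => hk1 ?_⟩
    · rw [map_mul, map_one, htdef, heven, ← map_mul, dia_mul, hk2, dia_one, map_one]
    · have h1 := heven k
      rw [← htdef, e, map_one] at h1
      refine dia_inj (σ := RingEquiv.refl F) ?_
      rw [← innDiag_apply, ← innDiag_apply, ← h1, dia_one, map_one]
  obtain ⟨w, hw⟩ := h.exists_of_det (A := wey) (by simp [wey_coe, det_fin_two])
  have hwt : Commute w t := h.eq_of (by
    rw [map_mul, map_mul, hw, htdef, heven, hNk, ← map_mul, ← map_mul, wey_dia, innDiag_eq_iff le_rfl]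
    refine ⟨-1, ?_⟩
    rw [show (-1 : Fˣ)⁻¹ = -1 from inv_eq_of_mul_eq_one_right (Units.ext (by simp)), ← mul_assoc, ← mul_assoc,
      show scal 2 (-1 : Fˣ) * scal 2 (-1) = scal 2 ((-1 : Fˣ) * -1) from (map_mul _ _ _).symm,
      show ((-1 : Fˣ) * -1) = 1 from Units.ext (by simp), show scal 2 (1 : Fˣ) = (1 : GL (Fin 2) F) from map_one _,
      one_mul])
  have hmem := (h.nc.conj_mem_iff ht (pow_mem (Subgroup.mem_zpowers g) _) w).2 hwt
  obtain ⟨j, hj⟩ : ∃ j : ℕ, g ^ j = w * g * w⁻¹ := mem_powers_iff_mem_zpowers.2 hmem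
  have hconj : ρ (w * g * w⁻¹) = semiAut (dia δ⁻¹) σ := by
    rw [map_mul, map_mul, map_inv, hw, hg, ← map_inv (innDiag 2 F), innDiag_mul_semiAut,
      semiAut_mul_innDiag, map_inv, map_wey, wey_dia, mul_inv_cancel_right, semiAut_scal_mul]
  rw [← hj] at hconj
  rcases Nat.even_or_odd' j with ⟨i, rfl | rfl⟩
  · rw [heven, innDiag_apply] at hconj
    exact hσ1 (semiAut_inj le_rfl hconj).1.symm
  · rw [hodd] at hconj
    have h1 : N ^ i * δ = δ⁻¹ := dia_inj hconj
    have h2 : δ ^ 2 = (N ^ i)⁻¹ := by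
      rw [eq_inv_iff_mul_eq_one, pow_two, mul_assoc, mul_comm δ (N ^ i), h1, mul_inv_cancel]
    exact hnfix (by rw [h2, map_inv, map_pow, hσN])

/-- All field parts are trivial. -/
theorem Over.sigma_one (hF : Odd (Fintype.card F) ∨ 4 < Fintype.card F) {B : GL (Fin 2) F} {σ : F ≃+* F}
    {g : G} (hg : ρ g = semiAut B σ) : σ = 1 := by
  by_contra hσ
  haveI : Finite (RingAut F) := Finite.of_injective _ DFunLike.coe_injective
  obtain ⟨r, hr, hdvd⟩ := Nat.exists_prime_and_dvd (n := orderOf σ) fun e => hσ (orderOf_eq_one_iff.1 e)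
  obtain ⟨B', hB', -⟩ := exists_semiAut_pow B σ (orderOf σ / r)
  rw [← hg, ← map_pow] at hB'
  set τ := σ ^ (orderOf σ / r) with hτdef
  have hτ : orderOf τ = r := by
    rw [hτdef, orderOf_pow_of_dvd (Nat.div_pos (Nat.le_of_dvd (orderOf_pos σ) hdvd) hr.pos).ne'
      (Nat.div_dvd_of_dvd hdvd), Nat.div_div_self hdvd (orderOf_pos σ).ne']
  have hτ1 : τ ≠ 1 := fun e => hr.ne_one (by rw [← hτ, e, orderOf_one])
  obtain ⟨δ, g₁, hg₁⟩ := h.exists_dia hB'
  rcases hr.eq_two_or_odd' with rfl | hrodd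
  · rcases Nat.even_or_odd (Fintype.card F) with hev | hodd
    · have h4 : 4 < Fintype.card F := hF.resolve_left (Nat.not_odd_iff_even.2 hev)
      have hc : ringChar F = 2 := FiniteField.even_card_iff_char_two.2 (Nat.even_iff.1 hev)
      obtain ⟨g₂, hg₂⟩ := h.pure hg₁ (isSquare_of_two hc δ)
      refine h.no_pure_two_even hg₂ hτ ?_ h4
      exact_mod_cast (ringChar.spec F 2).2 (hc ▸ dvd_rfl)
    · by_cases hs : IsSquare δ
      · obtain ⟨g₂, hg₂⟩ := h.pure hg₁ hs
        exact h.no_pure_two_odd hg₂ hτ hodd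
      · exact h.no_dia_two hg₁ hτ hodd hs
  · have hgg : ρ (g₁ * g₁) = semiAut (dia (δ * Units.map (τ : F →* F) δ)) (τ * τ) := by
      rw [map_mul, hg₁, semiAut_mul', map_dia, dia_mul]
      rfl
    have hsq : IsSquare (δ * Units.map (τ : F →* F) δ) := by
      rcases Nat.even_or_odd (Fintype.card F) with hev | hodd
      · exact isSquare_of_two (FiniteField.even_card_iff_char_two.2 (Nat.even_iff.1 hev)) _
      · exact mul_map_isSquare τ hodd δ
    obtain ⟨g₂, hg₂⟩ := h.pure hgg hsq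
    have ho : orderOf (τ * τ) = r := by
      rw [← pow_two, Nat.Coprime.orderOf_pow (by rw [hτ]; exact Nat.coprime_two_right.2 hrodd), hτ]
    exact h.no_pure_odd hg₂ (fun e => hr.ne_one (by rw [← ho, e, orderOf_one])) (ho ▸ hrodd)

end Cfsg.Agent.H33.EC
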