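import Mathlib
import Cfsg.Agent.H33.EC.Basic
import Cfsg.Agent.H25.PF14.Solvable

/-!
Without solvable normal subgroups the normalizer condition allows only one minimal normal subgroup, which is
simple and has trivial centralizer.
-/

set_option autoImplicit false

open scoped commutatorElement

namespace Cfsg.Agent.H33.EC

variable {G : Type*} [Group G] [Finite G]

theorem exists_odd_elt {B : Subgroup G} (hB : ¬ Group.IsSolvable B) :
    ∃ x ∈ B, x ≠ 1 ∧ Odd (orderOf x) := by
  by_contra hcon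
  push Not at hcon
  apply hB
  have : Fact (Nat.Prime 2) := ⟨Nat.prime_two⟩
  have hp : IsPGroup 2 B := by
    intro y
    obtain ⟨a, m, hm, hn⟩ := Nat.exists_eq_two_pow_mul_odd (orderOf_pos y).ne'
    refine ⟨a, ?_⟩
    by_contra hy
    refine hcon ((y ^ 2 ^ a : B) : G) (y ^ 2 ^ a).2 (fun e => hy (Subtype.ext e)) ?_
    rw [Subgroup.orderOf_coe]
    refine hm.of_dvd_nat (orderOf_dvd_of_pow_eq_one ?_)
    rw [← pow_mul, ← hn, pow_orderOf_eq_one]
  haveI : Group.IsNilpotent B := IsPGroup.isNilpotent hp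
  exact inferInstance

theorem exists_involution {A : Subgroup G} (hA : ¬ Group.IsSolvable A) : ∃ e ∈ A, orderOf e = 2 := by
  have : Fact (Nat.Prime 2) := ⟨Nat.prime_two⟩
  obtain ⟨e, he⟩ := exists_prime_orderOf_dvd_card' (G := A) 2 (even_iff_two_dvd.1 (by
    by_contra h
    exact hA (H25.PF14.odd_solvable A (Nat.not_even_iff_odd.1 h))))
  exact ⟨e, e.2, by rw [Subgroup.orderOf_coe]; exact he⟩

/-- Two commuting subgroups, one without normalized abelian subgroups, cannot both be nonsolvable. -/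
theorem NC.no_commuting (h : NC G) {A B W : Subgroup G} (hA : ¬ Group.IsSolvable A) (hB : ¬ Group.IsSolvable B)
    (hAB : ∀ a ∈ A, ∀ b ∈ B, Commute a b) (hW : ∀ w ∈ W, ∀ a ∈ A, w * a * w⁻¹ ∈ A)
    (hab : ∀ N : Subgroup G, N ≤ A → (∀ w ∈ W, ∀ a ∈ N, w * a * w⁻¹ ∈ N) →
      (∀ a ∈ N, ∀ b ∈ N, Commute a b) → N = ⊥) : False := by
  obtain ⟨x, hx, hx1, hxo⟩ := exists_odd_elt hB
  obtain ⟨t, htA, ht⟩ := exists_involution hA
  set T : Set G := {e | e ∈ A ∧ orderOf e = 2} with hT
  have hcomm : ∀ a ∈ T, ∀ b ∈ T, Commute a b := by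
    intro a ha b hb
    exact (h.commute_iff_of_common ha.2 hb.2 ((h.mem_oddD ha.2).2 ⟨(hAB a ha.1 x hx).symm, hxo⟩)
      ((h.mem_oddD hb.2).2 ⟨(hAB b hb.1 x hx).symm, hxo⟩) hx1 a).1 (Commute.refl a)
  have hle : Subgroup.closure T ≤ A := (Subgroup.closure_le _).2 fun e he => he.1
  have hconj : ∀ w ∈ W, ∀ a ∈ Subgroup.closure T, w * a * w⁻¹ ∈ Subgroup.closure T := by
    intro w hw a ha
    induction ha using Subgroup.closure_induction with
    | mem y hy =>
      have ho : orderOf (w * y * w⁻¹) = 2 := by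
        simpa using ((MulAut.conj w).orderOf_eq y).trans hy.2
      exact Subgroup.subset_closure ⟨hW w hw y hy.1, ho⟩
    | one => simp
    | mul p q _ _ hp hq => simpa [mul_assoc] using mul_mem hp hq
    | inv p _ hp => simpa [mul_assoc] using inv_mem hp
  have hN := hab (Subgroup.closure T) hle hconj (by
      intro a ha b hb
      have h1 : Subgroup.closure T ≤ Subgroup.centralizer T := (Subgroup.closure_le _).2 fun p hp =>
        Subgroup.mem_centralizer_iff.2 fun q hq => (hcomm p hp q hq).symm.eq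
      have h2 : Subgroup.closure T ≤ Subgroup.centralizer (Subgroup.closure T : Set G) :=
        (Subgroup.closure_le _).2 fun p hp => Subgroup.mem_centralizer_iff.2 fun q hq =>
          (Subgroup.mem_centralizer_iff.1 (h1 hq) p hp).symm
      exact (Subgroup.mem_centralizer_iff.1 (h2 ha) b hb).symm)
  have : t ∈ Subgroup.closure T := Subgroup.subset_closure ⟨htA, ht⟩
  rw [hN, Subgroup.mem_bot] at this
  exact (orderOf_two_iff.1 ht).2 this

/-- Abelian subgroups normalized by a normal subgroup containing them are trivial. -/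
theorem abelian_eq_bot (hss : ∀ N : Subgroup G, N.Normal → Group.IsSolvable ↥N → N = ⊥)
    (M : Subgroup G) [M.Normal] {N : Subgroup G} (hNM : N ≤ M)
    (hnorm : ∀ w ∈ M, ∀ a ∈ N, w * a * w⁻¹ ∈ N) (hab : ∀ a ∈ N, ∀ b ∈ N, Commute a b) : N = ⊥ := by
  by_contra hne
  obtain ⟨y, hy, hy1⟩ := (Subgroup.nontrivial_iff_exists_ne_one _).1
    ((Subgroup.nontrivial_iff_ne_bot _).2 hne)
  obtain ⟨p, hp, hdvd⟩ := Nat.exists_prime_and_dvd (n := orderOf y) fun e => hy1 (orderOf_eq_one_iff.1 e)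
  have : Fact p.Prime := ⟨hp⟩
  let P : Subgroup M :=
    { carrier := {z | (z : G) ∈ N ∧ z ^ p = 1}
      one_mem' := ⟨one_mem N, one_pow p⟩
      mul_mem' := fun {a b} ha hb => ⟨mul_mem ha.1 hb.1, by
        rw [(show Commute a b from Subtype.ext (hab _ ha.1 _ hb.1)).mul_pow, ha.2, hb.2, one_mul]⟩
      inv_mem' := fun {a} ha => ⟨N.inv_mem ha.1, by rw [inv_pow, ha.2, inv_one]⟩ }
  have hPn : P.Normal := ⟨fun z hz w => ⟨hnorm _ w.2 _ hz.1, by rw [conj_pow, hz.2, mul_one, mul_inv_cancel]⟩⟩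
  have hPp : IsPGroup p P := fun z => ⟨1, Subtype.ext (by rw [pow_one]; exact z.2.2)⟩
  have hle := H19.le_pCore hPn hPp
  haveI := H19.pCore_characteristic p M
  have hn : ((Cfsg.pCore p M).map M.subtype).Normal := ConjAct.normal_of_characteristic_of_normal
  have hnil : Group.IsNilpotent ((Cfsg.pCore p M).map M.subtype) :=
    IsPGroup.isNilpotent ((H19.pCore_isPGroup p).map M.subtype)
  have hbot := hss _ hn inferInstance
  have ho : orderOf (y ^ (orderOf y / p)) = p := by
    rw [orderOf_pow_of_dvd (Nat.div_pos (Nat.le_of_dvd (orderOf_pos y) hdvd) hp.pos).ne'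
      (Nat.div_dvd_of_dvd hdvd), Nat.div_div_self hdvd (orderOf_pos y).ne']
  have hmem : (⟨y ^ (orderOf y / p), pow_mem (hNM hy) _⟩ : M) ∈ P := by
    refine ⟨pow_mem hy _, Subtype.ext ?_⟩
    have := pow_orderOf_eq_one (y ^ (orderOf y / p))
    rw [ho] at this
    exact this
  have h1 : y ^ (orderOf y / p) ∈ (Cfsg.pCore p M).map M.subtype :=
    ⟨_, hle hmem, rfl⟩
  rw [hbot, Subgroup.mem_bot] at h1
  rw [h1, orderOf_one] at ho
  exact hp.ne_one ho.symm

/-- A simple normal subgroup with trivial centralizer. -/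
theorem exists_simple_normal [Nontrivial G]
    (hss : ∀ N : Subgroup G, N.Normal → Group.IsSolvable ↥N → N = ⊥) (h : NC G) :
    ∃ M : Subgroup G, M.Normal ∧ IsSimpleGroup M ∧ ¬ (∀ a b : M, Commute a b) ∧
      Subgroup.centralizer (M : Set G) = ⊥ := by
  classical
  have hex : ∃ n, ∃ M : Subgroup G, M.Normal ∧ M ≠ ⊥ ∧ Nat.card M = n :=
    ⟨_, ⊤, inferInstance, top_ne_bot, rfl⟩
  obtain ⟨M, hMn, hMne, hMc⟩ := Nat.find_spec hex
  have hmin : ∀ N : Subgroup G, N.Normal → N ≤ M → N ≠ ⊥ → N = M := by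
    intro N hN hle hne
    refine Subgroup.eq_of_le_of_card_ge hle ?_
    rw [hMc]
    exact Nat.find_min' hex ⟨N, hN, hne, rfl⟩
  have hMns : ¬ Group.IsSolvable M := fun hs => hMne (hss M hMn hs)
  have hab := fun N => abelian_eq_bot hss M (N := N)
  refine ⟨M, hMn, ?_, fun hc => hMne (hab M le_rfl (fun w _ a ha => hMn.conj_mem a ha w)
    fun a ha b hb => congrArg Subtype.val (hc ⟨a, ha⟩ ⟨b, hb⟩).eq), ?_⟩
  · haveI : Nontrivial M := (Subgroup.nontrivial_iff_ne_bot _).2 hMne
    refine IsSimpleGroup.mk fun K₀ hK₀ => ?_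
    by_contra hcon
    push Not at hcon
    have hK₀' : ∀ w ∈ M, ∀ a ∈ K₀.map M.subtype, w * a * w⁻¹ ∈ K₀.map M.subtype := by
      rintro w hw _ ⟨a, ha, rfl⟩
      exact ⟨⟨w, hw⟩ * a * ⟨w, hw⟩⁻¹, hK₀.conj_mem a ha _, rfl⟩
    have hexK : ∃ n, ∃ K : Subgroup G, K ≤ K₀.map M.subtype ∧ (∀ w ∈ M, ∀ a ∈ K, w * a * w⁻¹ ∈ K) ∧
        K ≠ ⊥ ∧ Nat.card K = n :=
      ⟨_, _, le_rfl, hK₀', fun e => hcon.1 (by
        rwa [Subgroup.map_eq_bot_iff_of_injective _ M.subtype_injective] at e), rfl⟩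
    obtain ⟨K, hKle, hKn, hKne, hKc⟩ := Nat.find_spec hexK
    have hKM : K ≤ M := hKle.trans (Subgroup.map_subtype_le _)
    have hKmin : ∀ L : Subgroup G, L ≤ K → (∀ w ∈ M, ∀ a ∈ L, w * a * w⁻¹ ∈ L) → L ≠ ⊥ → L = K := by
      intro L hL hLn hLne
      refine Subgroup.eq_of_le_of_card_ge hL ?_
      rw [hKc]
      exact Nat.find_min' hexK ⟨L, hL.trans hKle, hLn, hLne, rfl⟩
    obtain ⟨g, a, ha, hga⟩ : ∃ g : G, ∃ a ∈ K, g * a * g⁻¹ ∉ K := by
      by_contra hall
      push Not at hall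
      have hKeq := hmin K ⟨fun a ha g => hall g a ha⟩ hKM hKne
      refine hcon.2 ?_
      rw [eq_top_iff]
      intro z _
      have : (z : G) ∈ K₀.map M.subtype := hKle (hKeq.symm ▸ z.2)
      obtain ⟨z', hz', e⟩ := this
      rwa [← Subtype.ext e]
    set K' := K.map (MulAut.conj g).toMonoidHom with hK'
    have hmem' : ∀ {z}, z ∈ K' ↔ g⁻¹ * z * g ∈ K := by
      intro z
      constructor
      · rintro ⟨z', hz', rfl⟩
        simpa [mul_assoc] using hz'
      · intro hz
        exact ⟨_, hz, by simp [mul_assoc]⟩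
    have hK'n : ∀ w ∈ M, ∀ z ∈ K', w * z * w⁻¹ ∈ K' := by
      intro w hw z hz
      rw [hmem'] at hz ⊢
      have := hKn (g⁻¹ * w * g) (by simpa using hMn.conj_mem w hw g⁻¹) _ hz
      simpa [mul_assoc] using this
    have hK'M : K' ≤ M := by
      intro z hz
      have := hMn.conj_mem _ (hKM (hmem'.1 hz)) g
      simpa [mul_assoc] using this
    have hcard : Nat.card K' = Nat.card K := Subgroup.card_map_of_injective (MulAut.conj g).injective
    have hbot : K ⊓ K' = ⊥ := by
      by_contra hne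
      have he := hKmin _ inf_le_left (fun w hw z hz => ⟨hKn w hw z hz.1, hK'n w hw z hz.2⟩) hne
      have h1 : K ≤ K' := he ▸ inf_le_right
      have h2 := Subgroup.eq_of_le_of_card_ge h1 hcard.le
      exact hga (h2 ▸ ⟨a, ha, by simp⟩)
    have hcomm : ∀ p ∈ K, ∀ q ∈ K', Commute p q := by
      intro p hp q hq
      have h1 : p * q * p⁻¹ * q⁻¹ ∈ K' := mul_mem (hK'n p (hKM hp) q hq) (inv_mem hq)
      have h2 : p * q * p⁻¹ * q⁻¹ ∈ K := by
        have := mul_mem hp (hKn q (hK'M hq) _ (inv_mem hp))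
        simpa [mul_assoc] using this
      have : p * q * p⁻¹ * q⁻¹ ∈ K ⊓ K' := ⟨h2, h1⟩
      rw [hbot, Subgroup.mem_bot, mul_inv_eq_one, mul_inv_eq_iff_eq_mul] at this
      exact this
    have hns : ¬ Group.IsSolvable K := by
      intro hs
      by_cases hc : ⁅K, K⁆ = ⊥
      · refine hKne (hab K hKM hKn fun p hp q hq => ?_)
        have : ⁅p, q⁆ ∈ ⁅K, K⁆ := Subgroup.commutator_mem_commutator hp hq
        rw [hc, Subgroup.mem_bot] at this
        exact commutatorElement_eq_one_iff_commute.1 this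
      have hlt : ⁅K, K⁆ < K := by
        haveI : Nontrivial K := (Subgroup.nontrivial_iff_ne_bot _).2 hKne
        have h1 := (Group.IsSolvable.commutator_lt_top_of_nontrivial K)
        have h2 := Subgroup.map_lt_map_iff_of_injective (f := K.subtype) K.subtype_injective |>.2 h1
        rwa [← MonoidHom.range_eq_map, Subgroup.range_subtype, Subgroup.map_subtype_commutator] at h2
      refine absurd (hKmin _ hlt.le (fun w hw z hz => ?_) hc) hlt.ne
      have hmap : K.map (MulAut.conj w).toMonoidHom = K := by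
        refine Subgroup.eq_of_le_of_card_ge ?_ (by rw [Subgroup.card_map_of_injective (MulAut.conj w).injective])
        rintro _ ⟨z', hz', rfl⟩
        simpa using hKn w hw z' hz'
      have := Subgroup.mem_map_of_mem (MulAut.conj w).toMonoidHom hz
      rw [Subgroup.map_commutator, hmap] at this
      simpa using this
    have hns' : ¬ Group.IsSolvable K' := fun hs => hns (Group.isSolvable_of_isSolvable_injective
      (f := (K.equivMapOfInjective (MulAut.conj g).toMonoidHom (MulAut.conj g).injective).toMonoidHom)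
      (K.equivMapOfInjective (MulAut.conj g).toMonoidHom (MulAut.conj g).injective).injective)
    exact h.no_commuting hns hns' hcomm hKn fun N hN hNn hNc => hab N (hN.trans hKM) hNn hNc
  · by_contra hne
    have hCs : ¬ Group.IsSolvable (Subgroup.centralizer (M : Set G)) := fun hs =>
      hne (hss _ inferInstance hs)
    exact h.no_commuting (W := M) hMns hCs (fun a ha b hb => Subgroup.mem_centralizer_iff.1 hb a ha)
      (fun w _ a ha => hMn.conj_mem a ha w) hab

end Cfsg.Agent.H33.EC
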